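import Mathlib
import Cfsg.Agent.PLengthExp.ExceptionalPair
import Cfsg.Agent.S3370

/-!
A square root of a pinched involution on a weight piece, for `p = 2`.
-/

set_option autoImplicit false

open scoped commutatorElement IsMulCommutative

namespace CfsgLib.PLengthGross

open CfsgLib.PLengthExp

universe u v w

variable {k : Type w} [Field k] [IsAlgClosed k] {V : Type v} [AddCommGroup V] [Module k V]

/-- The powers `T ^ l v`, `l < d`, are independent if `(T - 1) ^ d = 0` and `(T - 1) ^ (d - 1) v ≠ 0`. -/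
theorem linearIndependent_powers {U : Type*} [AddCommGroup U] [Module k U] (T : Module.End k U) {d : ℕ}
    (hd : (T - 1) ^ d = 0) {v : U} (hv : ((T - 1) ^ (d - 1)) v ≠ 0) :
    LinearIndependent k fun l : Fin d => (T ^ (l : ℕ)) v := by
  classical
  rw [Fintype.linearIndependent_iff]
  intro a ha
  let f : Polynomial k := ∑ l : Fin d, Polynomial.monomial (l : ℕ) (a l)
  set g := f.comp (Polynomial.X + 1) with hg
  have hfd : f.degree < d := Polynomial.degree_sum_fin_lt a |>.trans_eq' (by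
    simp only [f, Polynomial.C_mul_X_pow_eq_monomial])
  have hgd : ∀ i, d ≤ i → g.coeff i = 0 := by
    intro i hi
    rcases eq_or_ne f 0 with h0 | h0
    · simp [hg, h0]
    refine Polynomial.coeff_eq_zero_of_natDegree_lt ?_
    rw [hg, Polynomial.natDegree_comp, show (Polynomial.X + 1 : Polynomial k).natDegree = 1 by
      rw [← Polynomial.C_1]; exact Polynomial.natDegree_X_add_C 1, mul_one]
    exact ((Polynomial.natDegree_lt_iff_degree_lt h0).2 hfd).trans_le hi
  have hgT : Polynomial.aeval (T - 1) g v = 0 := by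
    rw [hg, Polynomial.aeval_comp, map_add, Polynomial.aeval_X, map_one, sub_add_cancel]
    simp only [f, map_sum, Polynomial.aeval_monomial, LinearMap.sum_apply, Module.End.mul_apply,
      Module.algebraMap_end_apply]
    exact ha
  have hg0 : ∀ i, g.coeff i = 0 := by
    intro i
    induction i using Nat.strong_induction_on with
    | _ i ih =>
      by_cases hi : d ≤ i
      · exact hgd i hi
      push Not at hi
      have h1 := congrArg (⇑((T - 1) ^ (d - 1 - i))) hgT
      rw [map_zero, Polynomial.aeval_eq_sum_range' (n := d + g.natDegree + 1) (by omega), LinearMap.sum_apply,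
        map_sum, Finset.sum_eq_single i] at h1
      · rw [LinearMap.smul_apply, map_smul, ← Module.End.mul_apply, ← pow_add,
          show d - 1 - i + i = d - 1 by omega, smul_eq_zero] at h1
        exact h1.resolve_right hv
      · intro l _ hli
        rcases lt_or_gt_of_ne hli with hl | hl
        · rw [ih l hl, zero_smul, LinearMap.zero_apply, map_zero]
        · rw [LinearMap.smul_apply, map_smul, ← Module.End.mul_apply, ← pow_add,
            show d - 1 - i + l = d + (l - i - 1) by omega, pow_add, hd, zero_mul, LinearMap.zero_apply, smul_zero]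
      · intro h
        exact absurd (Finset.mem_range.2 (by omega)) h
  have hf : f = 0 := by
    have h1 : g = 0 := Polynomial.ext fun i => by rw [hg0, Polynomial.coeff_zero]
    have h2 := congrArg (fun P => Polynomial.comp P (Polynomial.X - 1)) h1
    simpa [hg, Polynomial.comp_assoc] using h2
  intro i
  have h1 := congrArg (fun P => Polynomial.coeff P (i : ℕ)) hf
  simp only [f, Polynomial.finset_sum_coeff, Polynomial.coeff_monomial, Polynomial.coeff_zero] at h1
  rw [Finset.sum_eq_single i] at h1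
  · simpa using h1
  · exact fun l _ hl => if_neg fun h => hl (Fin.ext h)
  · simp

/-- Intertwiners killing the sum along independent vectors of an irreducible module vanish. -/
theorem intertwiner_eq_zero [FiniteDimensional k V] {U : Type*} [AddCommGroup U] [Module k U]
    [FiniteDimensional k U] [Nontrivial U] {R : Type*} [Group R] (L₀ : R →* Module.End k U)
    (hsimple : ∀ Y : Submodule k U, (∀ s, Y.map (L₀ s) ≤ Y) → Y = ⊥ ∨ Y = ⊤)
    (L : R →* Module.End k V) {d : ℕ} (D : Fin d → (U →ₗ[k] V))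
    (hD : ∀ l s x, D l (L₀ s x) = L s (D l x)) {w : Fin d → U} (hw : LinearIndependent k w)
    (hsum : ∑ l, D l (w l) = 0) : ∀ l, D l = 0 := by
  classical
  intro l
  refine LinearMap.ext fun u₀ => ?_
  let A := Algebra.adjoin k (Set.range L₀)
  haveI : IsSimpleModule A U := by
    have : IsSimpleOrder (Submodule A U) := ⟨fun Y => ?_⟩
    · exact ⟨⟩
    rcases hsimple (Y.restrictScalars k) (by
      rintro s _ ⟨x, hx, rfl⟩
      exact Y.smul_mem (⟨L₀ s, Algebra.subset_adjoin ⟨s, rfl⟩⟩ : A) hx) with h | h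
    · exact Or.inl ((Submodule.restrictScalars_eq_bot_iff _ _ _).mp h)
    · exact Or.inr ((Submodule.restrictScalars_eq_top_iff _ _ _).mp h)
  have hend : ∀ φ : Module.End A U, ∃ c : k, ∀ x, φ x = c • x := by
    intro φ
    obtain ⟨c, hc⟩ := CfsgLib.HallHigmanB.exists_scalar L₀ hsimple (φ.restrictScalars k) fun s =>
      LinearMap.ext fun x => (φ.map_smul (⟨L₀ s, Algebra.subset_adjoin ⟨s, rfl⟩⟩ : A) x).symm
    exact ⟨c, fun x => LinearMap.congr_fun hc x⟩
  obtain ⟨X, hX⟩ : ∃ X : Module.End k U, ∀ m, X (w m) = if m = l then u₀ else 0 := by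
    let b := Module.Basis.extend hw.linearIndepOn_id
    refine ⟨b.constr k fun i => if (i : U) = w l then u₀ else 0, fun m => ?_⟩
    have hm : w m ∈ hw.linearIndepOn_id.extend (Set.subset_univ _) :=
      hw.linearIndepOn_id.subset_extend _ ⟨m, rfl⟩
    conv_lhs => rw [show w m = b ⟨w m, hm⟩ by simp [b, Module.Basis.extend_apply_self]]
    rw [Module.Basis.constr_basis]
    simp [hw.injective.eq_iff]
  let f : Module.End (Module.End A U) U :=
    { toFun := fun x => X x
      map_add' := map_add X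
      map_smul' := fun φ x => by
        obtain ⟨c, hc⟩ := hend φ
        simp [hc] }
  obtain ⟨⟨r, hr⟩, hrf⟩ := jacobson_density (R := A) f (Finset.univ.image w)
  have key : ∀ y ∈ A, ∀ x : Fin d → U, ∑ m, D m (x m) = 0 → ∑ m, D m (y (x m)) = 0 := by
    intro y hy
    clear hrf
    induction hy using Algebra.adjoin_induction with
    | mem y hy =>
      intro x hx
      obtain ⟨s, rfl⟩ := hy
      simp only [hD, ← map_sum, hx, map_zero]
    | algebraMap c =>
      intro x hx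
      simp only [Module.algebraMap_end_apply, map_smul, ← Finset.smul_sum, hx, smul_zero]
    | add y z _ _ hy hz =>
      intro x hx
      simp only [LinearMap.add_apply, map_add, Finset.sum_add_distrib, hy x hx, hz x hx, add_zero]
    | mul y z _ _ hy hz =>
      intro x hx
      simp only [Module.End.mul_apply]
      exact hy _ (hz x hx)
  have h := key r hr w hsum
  rw [Finset.sum_eq_single l] at h
  · rw [show r (w l) = f (w l) from (hrf _ (Finset.mem_image_of_mem w (Finset.mem_univ l))).symm] at h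
    have h2 : f (w l) = u₀ := by show X (w l) = u₀; rw [hX, if_pos rfl]
    rw [h2] at h
    rw [LinearMap.zero_apply]
    exact h
  · intro m _ hm
    rw [show r (w m) = f (w m) from (hrf _ (Finset.mem_image_of_mem w (Finset.mem_univ m))).symm]
    show D m (X (w m)) = 0
    rw [hX, if_neg hm, map_zero]
  · simp

/-- The fixed points modulo the centre are fixed by a square root. -/
theorem fixed_mod_center_two [FiniteDimensional k V] [Nontrivial V] {p : ℕ} [hp : Fact p.Prime] [CharP k p]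
    (hp2 : p = 2) {q : ℕ} [hq : Fact q.Prime] {S : Type u} [Group S] [Finite S] (hSq : IsPGroup q S)
    (hSk : (Nat.card S : k) ≠ 0) (L : S →* Module.End k V) (hinj : Function.Injective L)
    (hcomm : ∀ s t : S, ⁅s, t⁆ ∈ Subgroup.center S) (hscalc : ∀ s t : S, ∃ c : k, L ⁅s, t⁆ = c • 1)
    (σ : MulAut S) {f : ℕ} (hσ : σ ^ p ^ f = 1) (T : Module.End k V) (hT : T ^ p ^ f = 1)
    (hTL : ∀ s, T * L s = L (σ s) * T) (hsum : ∑ i ∈ Finset.range (p ^ f), T ^ i = 0)
    (hfix : ∀ s t : S, (σ ^ p ^ (f - 1)) ⁅s, t⁆ = ⁅s, t⁆)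
    (C : Subgroup S) (hC : ∀ s, s ∈ C ↔ (σ ^ p ^ (f - 1)) s * s⁻¹ ∈ Subgroup.center S) :
    C = ⊤ ∨ ∃ i, i + 2 ≤ f ∧ q + 1 = 2 ^ (f - i) ∧ C.index ≤ q ^ 2 ∧ ∀ c ∈ C, (σ ^ p ^ i) c * c⁻¹ ∈ Subgroup.center S := by
  classical
  set τ := σ ^ p ^ (f - 1) with hτ
  set Z := Subgroup.center S with hZ
  have hZk : (Nat.card Z : k) ≠ 0 :=
    CfsgLib.FpfAut.natCast_ne_zero_of_dvd (Subgroup.card_subgroup_dvd_card _) hSk
  obtain ⟨ψ, w, hw0, hw⟩ : ∃ (ψ : Z →* kˣ) (w : V), w ≠ 0 ∧ ∀ a : Z, L (a : S) w = (ψ a : k) • w := by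
    by_contra hcon
    push Not at hcon
    refine one_ne_zero (α := Module.End k V) (CfsgLib.FpfAut.eq_zero_of_eigen hZk (L.comp Z.subtype) _
      fun ψ x hx => ?_)
    by_contra hx0
    obtain ⟨a, ha⟩ := hcon ψ x (fun h => hx0 (by rw [h, map_zero]))
    exact ha (hx a)
  obtain ⟨j, hjf, hψσ, hkill⟩ := stab_sum hZk (L.comp Z.subtype) (centerAut σ) T (f := f)
    (MulEquiv.ext fun z => Subtype.ext (by rw [centerAut_pow, hσ]; rfl)) (fun a => hTL a) hsum ψ hw0 hw
  set σ₂ := σ ^ p ^ j with hσ₂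
  set T₂ := T ^ p ^ j with hT₂
  set g := f - j with hg
  have hσ₂g : σ₂ ^ p ^ g = 1 := by rw [hσ₂, ← pow_mul, ← pow_add, hg, Nat.add_sub_cancel' hjf.le, hσ]
  have hT₂g : T₂ ^ p ^ g = 1 := by rw [hT₂, ← pow_mul, ← pow_add, hg, Nat.add_sub_cancel' hjf.le, hT]
  have hσ₂τ : σ₂ ^ p ^ (g - 1) = τ := by
    rw [hσ₂, hτ, ← pow_mul, ← pow_add]
    congr 2
    omega
  have hT₂L : ∀ s, T₂ * L s = L (σ₂ s) * T₂ := CfsgLib.HallHigmanB.twist_pow hTL _
  have hcen : ∀ a : Z, ∀ t : S, t * a = a * t := fun a t => Subgroup.mem_center_iff.1 a.2 t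
  by_cases htriv : C = ⊤
  · exact Or.inl htriv
  set R₁ := Subgroup.closure (Set.range fun s : S => τ s * s⁻¹) with hR₁
  have hτc : ∀ c : S, c ∈ C → ∀ r ∈ R₁, r * c = c * r := by
    intro c hc r hr
    suffices h : R₁ ≤ Subgroup.centralizer {c} from Subgroup.mem_centralizer_singleton_iff.1 (h hr)
    rw [hR₁, Subgroup.closure_le]
    rintro _ ⟨t, rfl⟩
    rw [SetLike.mem_coe, Subgroup.mem_centralizer_singleton_iff]
    obtain ⟨z, hz, hzc⟩ : ∃ z ∈ Z, τ c = z * c := ⟨τ c * c⁻¹, (hC c).1 hc, (inv_mul_cancel_right _ _).symm⟩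
    have h1 : ∀ y, ⁅c, τ y⁆ = ⁅c, y⁆ := fun y => by
      have h := hfix c y
      rw [map_commutatorElement, hzc] at h
      rw [← h, commutatorElement_def, commutatorElement_def]
      calc c * τ y * c⁻¹ * (τ y)⁻¹ = (c * τ y * c⁻¹) * z * z⁻¹ * (τ y)⁻¹ := by group
        _ = z * (c * τ y * c⁻¹) * z⁻¹ * (τ y)⁻¹ := by rw [Subgroup.mem_center_iff.1 hz]
        _ = _ := by group
    have h4 : ∀ y : S, y * c * y⁻¹ = ⁅c, y⁆⁻¹ * c := fun y => by rw [commutatorElement_def]; group
    have h5 : τ t⁻¹ * c * (τ t⁻¹)⁻¹ = t⁻¹ * c * t⁻¹⁻¹ := by rw [h4, h4, h1]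
    rw [map_inv, inv_inv, inv_inv] at h5
    calc τ t * t⁻¹ * c = τ t * (t⁻¹ * c * t) * t⁻¹ := by group
      _ = τ t * ((τ t)⁻¹ * c * τ t) * t⁻¹ := by rw [h5]
      _ = _ := by group
  have hCn : ∀ a b : S, a ∈ C → b * a * b⁻¹ ∈ C := fun a b ha => by
    have h1 : (b * a * b⁻¹) * a⁻¹ ∈ Z := by
      have := hcomm b a
      rwa [commutatorElement_def] at this
    have h2 : b * a * b⁻¹ * a⁻¹ ∈ C := by
      rw [hC]
      refine mul_mem ?_ (inv_mem h1)
      exact (Subgroup.characteristic_iff_map_eq.1 inferInstance τ).le ⟨_, h1, rfl⟩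
    simpa using mul_mem h2 ha
  haveI : C.Normal := ⟨fun a ha b => hCn a b ha⟩
  -- `S = C R₁`
  have hSp : ¬ p ∣ Nat.card S := fun h => hSk ((CharP.cast_eq_zero_iff k p _).2 h)
  have hjoin : C ⊔ R₁ = ⊤ := by
    rw [eq_top_iff]
    intro s _
    set D := C ⊔ R₁ with hD
    have hZD : Z ≤ D := le_trans (fun a ha => (hC a).2 (mul_mem
      ((Subgroup.characteristic_iff_map_eq.1 inferInstance τ).le ⟨_, ha, rfl⟩) (inv_mem ha))) le_sup_left
    haveI : D.Normal := by
      refine ⟨fun a ha b => ?_⟩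
      have := mul_mem (hZD (hcomm b a)) ha
      rwa [commutatorElement_def, inv_mul_cancel_right] at this
    have hτs : ∀ y : S, ((τ y : S) : S ⧸ D) = (y : S ⧸ D) := fun y => by
      rw [eq_comm, QuotientGroup.eq]
      have h1 : τ y * y⁻¹ ∈ D := (le_sup_right (a := C)) (Subgroup.subset_closure ⟨y, rfl⟩)
      exact (Subgroup.Normal.mem_comm_iff inferInstance).1 h1
    have hτp : τ ^ p = 1 := by
      rw [hτ, ← pow_mul, ← pow_succ, Nat.sub_add_cancel (show 1 ≤ f by omega), hσ]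
    -- the norm modulo the centre
    letI : CommGroup (S ⧸ Z) := { (inferInstance : Group (S ⧸ Z)) with
      mul_comm := fun a b => by
        induction a using QuotientGroup.induction_on with
        | _ a =>
          induction b using QuotientGroup.induction_on with
          | _ b =>
            rw [← QuotientGroup.mk_mul, ← QuotientGroup.mk_mul, QuotientGroup.eq]
            have := hcomm b⁻¹ a⁻¹
            rw [commutatorElement_def] at this
            simpa [mul_assoc] using this }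
    let τZ : MulAut (S ⧸ Z) := QuotientGroup.congr Z Z τ (Subgroup.characteristic_iff_map_eq.1 inferInstance τ)
    have hτZ : ∀ (i : ℕ) (y : S), (τZ ^ i) (y : S ⧸ Z) = ((τ ^ i) y : S) := by
      intro i
      induction i with
      | zero => intro y; rfl
      | succ i ih =>
        intro y
        rw [pow_succ', pow_succ', MulAut.mul_apply, MulAut.mul_apply, ih]
        rfl
    have hτZp : τZ ^ p = 1 := MulEquiv.ext fun y => by
      induction y using QuotientGroup.induction_on with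
      | _ y => rw [hτZ, hτp]; rfl
    obtain ⟨c, hc⟩ := QuotientGroup.mk_surjective (∏ i ∈ Finset.range p, (τZ ^ i) (s : S ⧸ Z))
    have hcC : c ∈ C := by
      have h1 := norm_fixed τZ hτZp (s : S ⧸ Z)
      rw [← hc] at h1
      have h2 : ((τ c : S) : S ⧸ Z) = (c : S ⧸ Z) := h1
      rw [hC, ← QuotientGroup.eq_one_iff, QuotientGroup.mk_mul, QuotientGroup.mk_inv, h2, mul_inv_cancel]
    let φ : S ⧸ Z →* S ⧸ D := QuotientGroup.lift Z (QuotientGroup.mk' D) (by rw [QuotientGroup.ker_mk']; exact hZD)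
    have hφ : ∀ i : ℕ, φ ((τZ ^ i) (s : S ⧸ Z)) = (s : S ⧸ D) := fun i => by
      induction i with
      | zero => rfl
      | succ i ih =>
        rw [hτZ] at ih ⊢
        rw [pow_succ', MulAut.mul_apply]
        exact (hτs _).trans ih
    have h1 : (s : S ⧸ D) ^ p = 1 := by
      have h2 : φ (c : S ⧸ Z) = 1 := (QuotientGroup.eq_one_iff c).2 ((le_sup_left (b := R₁)) hcC)
      rw [hc] at h2
      have h3 : ∀ n : ℕ, φ (∏ i ∈ Finset.range n, (τZ ^ i) (s : S ⧸ Z)) = (s : S ⧸ D) ^ n := fun n => by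
        induction n with
        | zero => simp
        | succ n ih => rw [Finset.prod_range_succ, map_mul, ih, hφ, pow_succ]
      exact (h3 p).symm.trans h2
    rw [← QuotientGroup.eq_one_iff]
    refine orderOf_eq_one_iff.1 (Nat.eq_one_of_dvd_coprimes (hp.out.coprime_iff_not_dvd.2 hSp)
      (orderOf_dvd_of_pow_eq_one h1) ((orderOf_dvd_natCard _).trans (Subgroup.card_quotient_dvd_card D)))
  have hR₁C : ∀ r ∈ R₁, r ∈ C → r ∈ Z := by
    intro r hr hrC
    refine Subgroup.mem_center_iff.2 fun t => ?_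
    suffices h : C ⊔ R₁ ≤ Subgroup.centralizer {r} from
      Subgroup.mem_centralizer_singleton_iff.1 (h (hjoin ▸ Subgroup.mem_top t))
    refine sup_le (fun a ha => Subgroup.mem_centralizer_singleton_iff.2 (hτc a ha r hr).symm) ?_
    exact fun a ha => Subgroup.mem_centralizer_singleton_iff.2 (hτc r hrC a ha)
  -- an irreducible piece of the weight space
  let W : Submodule k V :=
    { carrier := {x | ∀ a : Z, L (a : S) x = (ψ a : k) • x}
      add_mem' := fun {x y} hx hy a => by rw [map_add, hx a, hy a, smul_add]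
      zero_mem' := fun a => by rw [map_zero, smul_zero]
      smul_mem' := fun c x hx a => by rw [map_smul, hx a, smul_comm] }
  have hWT : W.map T₂ ≤ W := by
    rintro _ ⟨x, hx, rfl⟩ a
    obtain ⟨a', ha'⟩ := (centerAut σ ^ p ^ j).surjective a
    have h1 : σ₂ (a' : S) = a := by rw [← ha', centerAut_pow]
    rw [← h1, ← Module.End.mul_apply, ← hT₂L, Module.End.mul_apply, hx a', map_smul, ← ha', hψσ]
  have hWR : ∀ s : S, W.map (L s) ≤ W := by
    rintro s _ ⟨x, hx, rfl⟩ a
    rw [← Module.End.mul_apply, ← map_mul, ← hcen, map_mul, Module.End.mul_apply, hx a, map_smul]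
  obtain ⟨U, ⟨hU0, hUW, hUT, hUR⟩, hUmin⟩ := (wellFounded_lt (α := Submodule k V)).has_min
    {U | U ≠ ⊥ ∧ U ≤ W ∧ U.map T₂ ≤ U ∧ ∀ r : R₁, U.map (L r) ≤ U}
    ⟨W, fun h => hw0 ((Submodule.eq_bot_iff W).1 h w hw), le_rfl, hWT, fun r => hWR r⟩
  haveI : Nontrivial U := Submodule.nontrivial_iff_ne_bot.2 hU0
  let Tu : Module.End k U := T₂.restrict fun x hx => hUT ⟨x, hx, rfl⟩
  let L₀ : R₁ →* Module.End k U := CfsgLib.HallHigmanB.restrictRep (L.comp R₁.subtype) U
    fun r x hx => hUR r ⟨x, hx, rfl⟩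
  have hστ : ∀ y, σ₂ (τ y) = τ (σ₂ y) := fun y => by
    rw [← MulAut.mul_apply, ← MulAut.mul_apply, hσ₂, hτ, ← pow_add, ← pow_add, add_comm]
  have hinvR : ∀ r ∈ R₁, σ₂ r ∈ R₁ := by
    intro r hr
    refine (?_ : R₁.map σ₂.toMonoidHom ≤ R₁) ⟨r, hr, rfl⟩
    rw [hR₁, MonoidHom.map_closure, Subgroup.closure_le]
    rintro _ ⟨_, ⟨t, rfl⟩, rfl⟩
    refine Subgroup.subset_closure ⟨σ₂ t, ?_⟩
    show τ (σ₂ t) * (σ₂ t)⁻¹ = σ₂ (τ t * t⁻¹)
    rw [map_mul, map_inv, hστ]
  set σR := CfsgLib.HallHigmanB.restrictAut σ₂ R₁ hinvR with hσR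
  have hσRv : ∀ (i : ℕ) (r : R₁), (((σR ^ i) r : R₁) : S) = (σ₂ ^ i) r :=
    CfsgLib.HallHigmanB.restrictAut_pow_coe σ₂ R₁ hinvR
  have hσRg : σR ^ p ^ g = 1 := MulEquiv.ext fun r => Subtype.ext (by rw [hσRv, hσ₂g]; rfl)
  have hTug : Tu ^ p ^ g = 1 := LinearMap.ext fun x => Subtype.ext (by
    rw [CfsgLib.HallHigmanB.restrict_pow_coe, hT₂g]; rfl)
  have hTuL₀ : ∀ r, Tu * L₀ r = L₀ (σR r) * Tu := fun r => LinearMap.ext fun x => Subtype.ext (by
    show T₂ (L (r : S) x.1) = L ((σR r : R₁) : S) (T₂ x.1)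
    have h1 := hσRv 1 r
    rw [pow_one, pow_one] at h1
    rw [h1, ← Module.End.mul_apply, hT₂L, Module.End.mul_apply])
  have hTuinv : Tu * Tu ^ (p ^ g - 1) = 1 := by
    rw [← pow_succ', Nat.sub_add_cancel (Nat.one_le_pow _ _ hp.out.pos), hTug]
  set N := L₀.ker with hN
  have hNσ : N.map σR.toMonoidHom = N := by
    refine Subgroup.eq_of_le_of_card_ge ?_
      (Subgroup.card_map_of_injective (f := σR.toMonoidHom) σR.injective).ge
    rintro _ ⟨r, hr, rfl⟩
    rw [SetLike.mem_coe, MonoidHom.mem_ker] at hr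
    rw [MonoidHom.mem_ker]
    calc L₀ (σR r) = L₀ (σR r) * Tu * Tu ^ (p ^ g - 1) := by rw [mul_assoc, hTuinv, mul_one]
      _ = 1 := by rw [← hTuL₀, hr, mul_one, hTuinv]
  let L' : R₁ ⧸ N →* Module.End k U := QuotientGroup.lift N L₀ le_rfl
  have hinj' : Function.Injective L' := by
    rw [injective_iff_map_eq_one]
    intro x hx
    induction x using QuotientGroup.induction_on with
    | _ r => exact (QuotientGroup.eq_one_iff r).2 hx
  let σ' : MulAut (R₁ ⧸ N) := QuotientGroup.congr N N σR hNσ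
  have hσ'mk : ∀ (i : ℕ) (r : R₁), (σ' ^ i) (r : R₁ ⧸ N) = ((σR ^ i) r : R₁) := by
    intro i
    induction i with
    | zero => intro r; rfl
    | succ i ih =>
      intro r
      rw [pow_succ', pow_succ', MulAut.mul_apply, MulAut.mul_apply, ih]
      rfl
  have hσ'g : σ' ^ p ^ g = 1 := MulEquiv.ext fun x => by
    induction x using QuotientGroup.induction_on with
    | _ r => rw [hσ'mk, hσRg]; rfl
  have hTuL' : ∀ x, Tu * L' x = L' (σ' x) * Tu := fun x => by
    induction x using QuotientGroup.induction_on with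
    | _ r => exact hTuL₀ r
  set Z' := Subgroup.center (R₁ ⧸ N) with hZ'
  have hcomm' : ∀ x y : R₁ ⧸ N, ⁅x, y⁆ ∈ Z' := fun x y => by
    induction x using QuotientGroup.induction_on with
    | _ a =>
      induction y using QuotientGroup.induction_on with
      | _ b =>
        refine Subgroup.mem_center_iff.2 fun t => ?_
        induction t using QuotientGroup.induction_on with
        | _ r =>
          have h1 : r * ⁅a, b⁆ = ⁅a, b⁆ * r :=
            Subtype.ext (Subgroup.mem_center_iff.1 (hcomm (a : S) (b : S)) (r : S))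
          exact congrArg (QuotientGroup.mk' N) h1
  obtain ⟨x₀, hx₀⟩ := exists_ne (0 : U)
  have hcen' : ∀ r : R₁, (r : R₁ ⧸ N) ∈ Z' ↔ (r : S) ∈ Z := by
    intro r
    constructor
    · intro h
      have hrR : ∀ a ∈ R₁, a * (r : S) = r * a := by
        intro a ha
        have h0 : ⁅QuotientGroup.mk' N r, QuotientGroup.mk' N ⟨a, ha⟩⁆ = 1 :=
          commutatorElement_eq_one_iff_mul_comm.2 (Subgroup.mem_center_iff.1 h _).symm
        rw [← map_commutatorElement, QuotientGroup.mk'_apply, QuotientGroup.eq_one_iff, MonoidHom.mem_ker] at h0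
        obtain ⟨c, hc⟩ := hscalc (r : S) a
        have h2 : (L ⁅(r : S), a⁆) x₀.1 = x₀.1 := congrArg Subtype.val (LinearMap.congr_fun h0 x₀)
        rw [hc, LinearMap.smul_apply, Module.End.one_apply] at h2
        have hc1 : c = 1 := smul_left_injective k (fun hz => hx₀ (Subtype.ext hz)) (h2.trans (one_smul k _).symm)
        refine (commutatorElement_eq_one_iff_mul_comm.1 (hinj ?_)).symm
        rw [hc, hc1, one_smul, map_one]
      refine Subgroup.mem_center_iff.2 fun t => ?_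
      suffices h : C ⊔ R₁ ≤ Subgroup.centralizer {(r : S)} from
        Subgroup.mem_centralizer_singleton_iff.1 (h (hjoin ▸ Subgroup.mem_top t))
      exact sup_le (fun c hc => Subgroup.mem_centralizer_singleton_iff.2 (hτc c hc r r.2).symm)
        fun a ha => Subgroup.mem_centralizer_singleton_iff.2 (hrR a ha)
    · intro h
      refine Subgroup.mem_center_iff.2 fun t => ?_
      induction t using QuotientGroup.induction_on with
      | _ a => exact congrArg (QuotientGroup.mk' N) (Subtype.ext (Subgroup.mem_center_iff.1 h (a : S)))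
  have hnc : Z' ≠ ⊤ := by
    intro h
    refine htriv (eq_top_iff.2 fun t _ => (hC t).2 ?_)
    exact (hcen' ⟨_, Subgroup.subset_closure ⟨t, rfl⟩⟩).1 (h ▸ Subgroup.mem_top _)
  have hscal' : ∀ z ∈ Z', ∃ c : k, L' z = c • 1 := by
    intro z hz
    induction z using QuotientGroup.induction_on with
    | _ r =>
      refine ⟨(ψ ⟨r, (hcen' r).1 hz⟩ : k), LinearMap.ext fun x => Subtype.ext ?_⟩
      exact hUW x.2 ⟨r, (hcen' r).1 hz⟩
  have hsimp : ∀ Y : Submodule k U, Y.map Tu ≤ Y → (∀ x, Y.map (L' x) ≤ Y) → Y = ⊥ ∨ Y = ⊤ := by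
    intro Y hYT hYL
    by_contra hcon
    push Not at hcon
    refine hUmin (Y.map U.subtype) ⟨fun h => hcon.1 (Submodule.map_injective_of_injective
        U.injective_subtype (h.trans (Submodule.map_bot U.subtype).symm)),
      (Submodule.map_subtype_le U Y).trans hUW, ?_, fun r => ?_⟩
      (lt_of_le_of_ne (Submodule.map_subtype_le U Y) fun h => hcon.2 (Submodule.map_injective_of_injective
        U.injective_subtype (h.trans (Submodule.map_subtype_top U).symm)))
    · rintro _ ⟨_, ⟨x, hx, rfl⟩, rfl⟩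
      exact ⟨Tu x, hYT ⟨x, hx, rfl⟩, rfl⟩
    · rintro _ ⟨_, ⟨x, hx, rfl⟩, rfl⟩
      exact ⟨L' (r : R₁ ⧸ N) x, hYL _ ⟨x, hx, rfl⟩, rfl⟩
  have hS'dvd : Nat.card (R₁ ⧸ N) ∣ Nat.card S :=
    (Subgroup.card_quotient_dvd_card N).trans (Subgroup.card_subgroup_dvd_card R₁)
  have hS'k : (Nat.card (R₁ ⧸ N) : k) ≠ 0 := CfsgLib.FpfAut.natCast_ne_zero_of_dvd hS'dvd hSk
  have hsimpL := CfsgLib.HallHigmanB.simple_of_twist hS'k L' hinj' hcomm' hscal' σ' g hσ'g Tu hTug hTuL' hsimp
  have hreg : ∀ i, 0 < i → i < p ^ g → ∀ x : R₁ ⧸ N, x⁻¹ * (σ' ^ i) x ∈ Z' → x ∈ Z' := by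
    intro i hi0 hig x hx
    induction x using QuotientGroup.induction_on with
    | _ r =>
      rw [hσ'mk, ← QuotientGroup.mk_inv, ← QuotientGroup.mk_mul, hcen', Subgroup.coe_mul, Subgroup.coe_inv,
        hσRv] at hx
      rw [hcen']
      refine hR₁C r r.2 ((hC _).2 ?_)
      let σZ : MulAut (S ⧸ Z) :=
        QuotientGroup.congr Z Z σ₂ (Subgroup.characteristic_iff_map_eq.1 inferInstance σ₂)
      have hσZ : ∀ (l : ℕ) (y : S), σZ^[l] (y : S ⧸ Z) = (((σ₂ ^ l) y : S) : S ⧸ Z) := by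
        intro l
        induction l with
        | zero => intro y; rfl
        | succ l ih =>
          intro y
          rw [Function.iterate_succ_apply', ih, pow_succ', MulAut.mul_apply]
          rfl
      have h1 : Function.IsPeriodicPt σZ i ((r : S) : S ⧸ Z) :=
        (hσZ i r).trans (QuotientGroup.eq.2 hx).symm
      have h2 : Function.IsPeriodicPt σZ (p ^ g) ((r : S) : S ⧸ Z) := (hσZ _ r).trans (by rw [hσ₂g]; rfl)
      obtain ⟨l, hl, hleq⟩ := (Nat.dvd_prime_pow hp.out).1 (Nat.gcd_dvd_right i (p ^ g))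
      have hlg : l ≤ g - 1 := by
        by_contra hcon
        have h3 := Nat.le_of_dvd hi0 (Nat.gcd_dvd_left i (p ^ g))
        rw [hleq, show l = g by omega] at h3
        omega
      have h4 : Function.IsPeriodicPt σZ (p ^ (g - 1)) ((r : S) : S ⧸ Z) :=
        (hleq ▸ h1.gcd h2).trans_dvd (pow_dvd_pow p hlg)
      have h5 : ((τ r : S) : S ⧸ Z) = (r : S) := by
        rw [← hσ₂τ, ← hσZ]; exact h4
      rw [← QuotientGroup.eq_one_iff, QuotientGroup.mk_mul, QuotientGroup.mk_inv, h5, mul_inv_cancel]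
  have hTr : (Tu - 1) ^ (p ^ g - 1) = 0 := by
    rw [sub_one_pow_eq_sum k (p := p) Tu g]
    refine LinearMap.ext fun x => Subtype.ext ?_
    rw [LinearMap.sum_apply, AddSubmonoidClass.coe_finsetSum, LinearMap.zero_apply, ZeroMemClass.coe_zero]
    refine Eq.trans (Finset.sum_congr rfl fun l _ => CfsgLib.HallHigmanB.restrict_pow_coe _ _ _ l x) ?_
    rw [← LinearMap.sum_apply]
    exact hkill _ (hUW x.2)
  rcases CfsgLib.HallHigmanB.critical hS'k L' hinj' hsimpL hcomm' hnc σ' g hσ'g Tu hTug hTuL' hreg hTr with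
    h | ⟨d, hd, -, hd1, hcard⟩
  · have := Nat.one_le_pow g p hp.out.pos
    omega
  subst hp2
  have hg2 : 2 ≤ g := by
    by_contra h
    have := Nat.pow_le_pow_right (show 0 < 2 by norm_num) (show g ≤ 1 by omega)
    omega
  obtain ⟨m, hm⟩ : ∃ m, d = q ^ m := by
    obtain ⟨l, hl⟩ := IsPGroup.iff_card.1 hSq
    have h1 : d ∣ q ^ l := (dvd_pow_self d two_ne_zero).trans
      (hcard ▸ ((Subgroup.card_quotient_dvd_card Z').trans hS'dvd).trans hl.dvd)
    obtain ⟨m, -, hm⟩ := (Nat.dvd_prime_pow hq.out).1 h1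
    exact ⟨m, hm⟩
  have hm1 : m = 1 := Cfsg.Agent.S3370.two_pow_sub_one_eq_pow hq.out hg2 (show 2 ^ g - 1 = q ^ m by omega)
  have hle : C.index ≤ q ^ 2 := by
    have h1 : C.relIndex R₁ = C.index := by
      rw [← Subgroup.relIndex_sup_right, sup_comm, hjoin, Subgroup.relIndex_top_right]
    rw [show q = d by rw [hm, hm1, pow_one], ← h1, ← hcard]
    refine Nat.le_of_dvd Nat.card_pos ?_
    rw [← Subgroup.index_eq_card, ← Subgroup.index_comap_of_surjective Z' (QuotientGroup.mk'_surjective N)]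
    refine Subgroup.index_dvd_of_le fun r hr => ?_
    rw [Subgroup.mem_subgroupOf]
    have h2 : (r : S) ∈ Z := (hcen' r).1 hr
    exact (hC _).2 (mul_mem
      ((Subgroup.characteristic_iff_map_eq.1 inferInstance τ).le ⟨_, h2, rfl⟩) (inv_mem h2))
  refine Or.inr ⟨j, by omega, by rw [show q = d by rw [hm, hm1, pow_one], ← hg]; omega, hle, ?_⟩
  rw [← hσ₂]
  -- the powers of `Tu` on a vector are independent
  have hTd : (Tu - 1) ^ d = 0 := by rw [show d = 2 ^ g - 1 by omega]; exact hTr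
  obtain ⟨v, hv⟩ : ∃ v, ((Tu - 1) ^ (d - 1)) v ≠ 0 := by
    by_contra hcon
    push Not at hcon
    rcases CfsgLib.HallHigmanB.critical hS'k L' hinj' hsimpL hcomm' hnc σ' g hσ'g Tu hTug hTuL' hreg
      (r := d - 1) (LinearMap.ext hcon) with h | ⟨d', hd', hle', -, -⟩
    · omega
    · omega
  have hind := linearIndependent_powers Tu hTd hv
  have hσC : ∀ (l : ℕ) (c : S), c ∈ C → (σ₂ ^ l) c ∈ C := by
    intro l c hc
    induction l with
    | zero => exact hc
    | succ l ih =>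
      rw [pow_succ', MulAut.mul_apply, hC, ← hστ, ← map_inv, ← map_mul]
      exact (Subgroup.characteristic_iff_map_eq.1 inferInstance σ₂).le ⟨_, (hC _).1 ih, rfl⟩
  have hTuW : ∀ (l : ℕ) (x : U), (T₂ ^ l) x.1 = ((Tu ^ l) x).1 := fun l x =>
    (CfsgLib.HallHigmanB.restrict_pow_coe _ _ _ l x).symm
  have key : ∀ (A : ℕ → Module.End k V), (∀ l < 2 ^ g, ∀ r : R₁, A l * L (r : S) = L (r : S) * A l) →
      (∀ x : U, ∑ l ∈ Finset.range (2 ^ g), A l ((T₂ ^ l) x.1) = 0) →
      ∀ l < 2 ^ g, ∀ x : U, A l x.1 = A 0 x.1 := by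
    intro A hA hAsum
    let D : Fin d → (U →ₗ[k] V) := fun l => (A l - A d) ∘ₗ U.subtype
    have hD0 : ∀ l, D l = 0 := by
      refine intertwiner_eq_zero L₀ (fun Y hY => hsimpL Y fun x => by
        induction x using QuotientGroup.induction_on with
        | _ r => exact hY r) (L.comp R₁.subtype) D (fun l r x => ?_) hind ?_
      · show (A l - A d) (L (r : S) x.1) = L (r : S) ((A l - A d) x.1)
        rw [← Module.End.mul_apply, ← Module.End.mul_apply, sub_mul, mul_sub,
          hA _ (by have := l.2; omega) r, hA d (by omega) r]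
      · show ∑ l : Fin d, (A l - A d) ((Tu ^ (l : ℕ)) v).1 = 0
        simp only [LinearMap.sub_apply, ← hTuW, Finset.sum_sub_distrib,
          Fin.sum_univ_eq_sum_range (fun l => A l ((T₂ ^ l) v.1)) d,
          Fin.sum_univ_eq_sum_range (fun l => A d ((T₂ ^ l) v.1)) d]
        have h1 := hAsum v
        rw [show 2 ^ g = d + 1 by omega, Finset.sum_range_succ] at h1
        have h2 := hkill _ (hUW v.2)
        rw [LinearMap.sum_apply, show 2 ^ g = d + 1 by omega, Finset.sum_range_succ] at h2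
        rw [← map_sum, eq_neg_of_add_eq_zero_left h1, eq_neg_of_add_eq_zero_left h2, map_neg, sub_self]
    intro l hl x
    have h0 : ∀ i : ℕ, i ≤ d → A i x.1 = A d x.1 := fun i hi => by
      rcases Nat.lt_or_eq_of_le hi with hi | rfl
      · exact sub_eq_zero.1 (LinearMap.congr_fun (hD0 ⟨i, hi⟩) x)
      · rfl
    rw [h0 l (by omega), h0 0 (Nat.zero_le _)]
  have hcR : ∀ c ∈ C, ∀ r : R₁, L c * L (r : S) = L (r : S) * L c := fun c hc r => by
    rw [← map_mul, ← map_mul, hτc c hc r r.2]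
  have hW : ∀ (s : S) (x : V), x ∈ W → L s x ∈ W := fun s x hx => hWR s ⟨x, hx, rfl⟩
  have hfirst : ∀ c ∈ C, ∀ l < 2 ^ g, ∀ x : U, L ((σ₂ ^ l) c) x.1 = L c x.1 := by
    intro c hc l hl x
    refine key (fun l => L ((σ₂ ^ l) c)) (fun l _ r => hcR _ (hσC l c hc) r) (fun y => ?_) l hl x
    have h1 := hkill (L c y.1) (hW c _ (hUW y.2))
    rw [LinearMap.sum_apply] at h1
    refine Eq.trans (Finset.sum_congr rfl fun i _ => ?_) h1
    rw [← Module.End.mul_apply, ← CfsgLib.HallHigmanB.twist_pow hT₂L]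
    rfl
  have hsecond : ∀ c ∈ C, ∀ c' ∈ C, ∀ x : U, L (σ₂ c) (L c' x.1) = L c (L c' x.1) := by
    intro c hc c' hc' x
    have h := key (fun l => L ((σ₂ ^ l) c) * L c')
      (fun l _ r => by rw [mul_assoc, hcR c' hc' r, ← mul_assoc, hcR _ (hσC l c hc) r, mul_assoc])
      (fun y => ?_) 1 (show 1 < 2 ^ g by omega) x
    · rw [pow_one] at h; exact h
    have h1 := hkill (L c (L c' y.1)) (hW c _ (hW c' _ (hUW y.2)))
    rw [LinearMap.sum_apply] at h1
    refine Eq.trans (Finset.sum_congr rfl fun i hi => ?_) h1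
    rw [← Module.End.mul_apply (T₂ ^ i), CfsgLib.HallHigmanB.twist_pow hT₂L, Module.End.mul_apply,
      Module.End.mul_apply, ← Module.End.mul_apply (T₂ ^ i) (L c'), CfsgLib.HallHigmanB.twist_pow hT₂L,
      Module.End.mul_apply, hTuW, hfirst c' hc' i (Finset.mem_range.1 hi)]
  intro c hc
  set z₀ := c⁻¹ * σ₂ c with hz₀
  have hσc : σ₂ c ∈ C := by have := hσC 1 c hc; rwa [pow_one] at this
  have hz₀C : z₀ ∈ C := mul_mem (inv_mem hc) hσc
  have hz₀U : ∀ x : U, L z₀ x.1 = x.1 := fun x => by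
    have h := hfirst c hc 1 (by omega) x
    rw [pow_one] at h
    rw [hz₀, map_mul, Module.End.mul_apply, h, ← Module.End.mul_apply, ← map_mul, inv_mul_cancel, map_one,
      Module.End.one_apply]
  have hz₀Z : z₀ ∈ Z := by
    refine Subgroup.mem_center_iff.2 fun t => ?_
    suffices h : C ⊔ R₁ ≤ Subgroup.centralizer {z₀} from
      Subgroup.mem_centralizer_singleton_iff.1 (h (hjoin ▸ Subgroup.mem_top t))
    refine sup_le (fun c' hc' => Subgroup.mem_centralizer_singleton_iff.2 ?_)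
      fun a ha => Subgroup.mem_centralizer_singleton_iff.2 (hτc z₀ hz₀C a ha)
    obtain ⟨x, hx⟩ := exists_ne (0 : U)
    obtain ⟨a, ha⟩ := hscalc z₀ c'
    have h1 : L z₀ (L c' x.1) = L c' x.1 := by
      rw [hz₀, map_mul, Module.End.mul_apply, hsecond c hc c' hc' x, ← Module.End.mul_apply, ← map_mul,
        inv_mul_cancel, map_one, Module.End.one_apply]
    have hne : L c' x.1 ≠ 0 := fun h0 => hx (Subtype.ext (by
      have := congrArg (L c'⁻¹) h0
      rw [← Module.End.mul_apply, ← map_mul, inv_mul_cancel, map_one, Module.End.one_apply, map_zero] at this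
      exact this))
    have h2 : L (z₀ * c') x.1 = a • L (c' * z₀) x.1 := by
      rw [show z₀ * c' = ⁅z₀, c'⁆ * (c' * z₀) by rw [commutatorElement_def]; group, map_mul, ha, smul_mul_assoc,
        one_mul, LinearMap.smul_apply]
    rw [map_mul L z₀ c', map_mul L c' z₀, Module.End.mul_apply, Module.End.mul_apply, h1, hz₀U] at h2
    have ha1 : a = 1 := smul_left_injective k hne (h2.symm.trans (one_smul k _).symm)
    refine (commutatorElement_eq_one_iff_mul_comm.1 (hinj ?_)).symm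
    rw [ha, ha1, one_smul, map_one]
  have h : σ₂ c * c⁻¹ = c * z₀ * c⁻¹ := by rw [hz₀, mul_inv_cancel_left]
  rw [h]
  exact (inferInstance : Z.Normal).conj_mem _ hz₀Z c

section Setting

variable {H : Type u} [Group H] [Finite H]

/-- A pinched power is trivial on a weight piece, or a root of it is trivial on its fixed points. -/
theorem exists_root_exact [FiniteDimensional k V] {p : ℕ} [hp : Fact p.Prime] [CharP k p] (hp2 : p = 2)
    {q : ℕ} [hq : Fact q.Prime]
    (ρ : H →* Module.End k V) (hinj : Function.Injective ρ) (P : Subgroup H) (R : Subgroup H)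
    (hRq : IsPGroup q R) (hRk : (Nat.card R : k) ≠ 0) (hcomm : ∀ s t : R, ⁅s, t⁆ ∈ Subgroup.center R)
    (c : P →* MulAut R) (hcv : ∀ (y : P) (s : R), ((c y s : R) : H) = y * s * (y : H)⁻¹)
    (χ : Subgroup.center R →* kˣ) {u : V} (hu : u ≠ 0)
    (hχu : ∀ a : Subgroup.center R, ρ ((a : R) : H) u = (χ a : k) • u)
    (St : Subgroup P) (hSt : ∀ y : P, y ∈ St ↔ ∀ a, χ (centerAut (c y) a) = χ a)
    {M : Type u} [CommGroup M] (π : R →* M) (hπ : Function.Surjective π) (hker : ∀ s, π s = 1 ↔ Rad χ s)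
    (cM : St →* MulAut M) (hcM : ∀ (y : St) (s : R), cM y (π s) = π (c y s))
    {x : H} (hx : x ∈ P) {n : ℕ} (hzp : (x ^ p ^ n) ^ p = 1)
    (hsum : ∑ i ∈ Finset.range (p ^ (n + 1)), ρ (x ^ i) = 0) (hzS : (⟨x, hx⟩ : P) ^ p ^ n ∈ St) :
    cM ⟨(⟨x, hx⟩ : P) ^ p ^ n, hzS⟩ = 1 ∨ ∃ j, j + 2 ≤ n + 1 ∧ q + 1 = 2 ^ (n + 1 - j) ∧
      ∃ hy : (⟨x, hx⟩ : P) ^ 2 ^ j ∈ St, (fixSub (cM ⟨(⟨x, hx⟩ : P) ^ p ^ n, hzS⟩)).index ≤ q ^ 2 ∧
      ∀ m ∈ fixSub (cM ⟨(⟨x, hx⟩ : P) ^ p ^ n, hzS⟩), cM ⟨(⟨x, hx⟩ : P) ^ 2 ^ j, hy⟩ m = m := by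
  classical
  set z := x ^ p ^ n with hzdef
  have hz : Pinched p ρ P z := ⟨x, hx, n, rfl, hzp, hsum⟩
  have hxz : x ^ p ^ n = z := rfl
  have hAk : (Nat.card (Subgroup.center R) : k) ≠ 0 :=
    CfsgLib.FpfAut.natCast_ne_zero_of_dvd (Subgroup.card_subgroup_dvd_card _) hRk
  set xP : P := ⟨x, hx⟩ with hxP
  let Lc : Subgroup.center R →* Module.End k V := (ρ.comp R.subtype).comp (Subgroup.center R).subtype
  set σ₀ := centerAut (c xP) with hσ₀
  have hσ₀v : ∀ (i : ℕ) (b : Subgroup.center R), (((σ₀ ^ i) b : Subgroup.center R) : R) = c (xP ^ i) b :=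
    fun i b => by rw [hσ₀, centerAut_pow, map_pow]
  have hxPz : xP ^ p ^ n = ⟨z, hz.mem⟩ := Subtype.ext hxz
  have hxPp : xP ^ p ^ (n + 1) = 1 := Subtype.ext (by
    rw [Subgroup.coe_pow, pow_succ, pow_mul, hxz, hzp]; rfl)
  have hσ : σ₀ ^ p ^ (n + 1) = 1 := MulEquiv.ext fun b => Subtype.ext (by
    rw [hσ₀v, hxPp, map_one]; rfl)
  have hTL₀ : ∀ b, ρ x * Lc b = Lc (σ₀ b) * ρ x := fun b => by
    show ρ x * ρ ((b : R) : H) = ρ (((σ₀ b : Subgroup.center R) : R) : H) * ρ x
    have h := hσ₀v 1 b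
    rw [pow_one, pow_one] at h
    rw [h, hcv, ← map_mul, ← map_mul, inv_mul_cancel_right]
  obtain ⟨j, hj, hjfix, hkill⟩ := stab_sum hAk Lc σ₀ (ρ x) hσ hTL₀ (by simpa only [map_pow] using hsum) χ hu hχu
  set x₁ : P := xP ^ p ^ j with hx₁
  have hx₁S : x₁ ∈ St := (hSt x₁).2 fun a => by
    rw [← hjfix a]
    exact congrArg χ (Subtype.ext (by rw [hσ₀v]; rfl))
  set f := n + 1 - j with hf
  have hfp : x₁ ^ p ^ f = 1 := by rw [hx₁, ← pow_mul, ← pow_add, hf, Nat.add_sub_cancel' hj.le, hxPp]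
  have hfz : x₁ ^ p ^ (f - 1) = ⟨z, hz.mem⟩ := by
    rw [hx₁, ← pow_mul, ← pow_add, show j + (f - 1) = n by omega, hxPz]
  -- the weight space
  let W : Submodule k V :=
    { carrier := {y | ∀ a : Subgroup.center R, ρ ((a : R) : H) y = (χ a : k) • y}
      add_mem' := fun {x y} hx hy a => by rw [map_add, hx a, hy a, smul_add]
      zero_mem' := fun a => by rw [map_zero, smul_zero]
      smul_mem' := fun d x hx a => by rw [map_smul, hx a, smul_comm] }
  haveI : Nontrivial W := Submodule.nontrivial_iff_ne_bot.2 fun h => hu ((Submodule.eq_bot_iff W).1 h u hχu)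
  have hWR : ∀ (s : R), ∀ y ∈ W, ρ (s : H) y ∈ W := by
    intro s y hy a
    have h1 : ((a : R) : H) * s = s * (a : R) := congrArg Subtype.val (Subgroup.mem_center_iff.1 a.2 s).symm
    rw [← Module.End.mul_apply, ← map_mul, h1, map_mul, Module.End.mul_apply, hy a, map_smul]
  set σR := c x₁ with hσR
  have hWT : ∀ y ∈ W, ρ (x₁ : H) y ∈ W := by
    intro y hy a
    obtain ⟨b, hb⟩ := (centerAut σR).surjective a
    have h1 : ((a : R) : H) * (x₁ : H) = (x₁ : H) * ((b : R) : H) := by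
      rw [← hb]
      show ((σR (b : R) : R) : H) * (x₁ : H) = _
      rw [hσR, hcv, inv_mul_cancel_right]
    have h2 : χ b = χ a := by
      rw [← hb]; exact ((hSt x₁).1 hx₁S b).symm
    rw [← Module.End.mul_apply, ← map_mul, h1, map_mul, Module.End.mul_apply, hy b, map_smul, h2]
  let T : Module.End k W := (ρ (x₁ : H)).restrict hWT
  let L₁ : R →* Module.End k W := CfsgLib.HallHigmanB.restrictRep (ρ.comp R.subtype) W hWR
  have hTv : ∀ (i : ℕ) (y : W), (((T ^ i) y : W) : V) = (ρ (x₁ : H) ^ i) y.1 :=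
    CfsgLib.HallHigmanB.restrict_pow_coe _ _ hWT
  have hT : T ^ p ^ f = 1 := LinearMap.ext fun y => Subtype.ext (by
    rw [hTv, ← map_pow, ← Subgroup.coe_pow, hfp, Subgroup.coe_one, map_one]; rfl)
  have hTL₁ : ∀ s, T * L₁ s = L₁ (σR s) * T := fun s => LinearMap.ext fun y => Subtype.ext (by
    show ρ (x₁ : H) (ρ (s : H) y.1) = ρ ((σR s : R) : H) (ρ (x₁ : H) y.1)
    rw [hσR, hcv, ← Module.End.mul_apply, ← Module.End.mul_apply, ← map_mul, ← map_mul, inv_mul_cancel_right])
  have hTinv : T * T ^ (p ^ f - 1) = 1 := by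
    rw [← pow_succ', Nat.sub_add_cancel (Nat.one_le_pow _ _ hp.out.pos), hT]
  have hTsum : ∑ i ∈ Finset.range (p ^ f), T ^ i = 0 := LinearMap.ext fun y => Subtype.ext (by
    rw [LinearMap.sum_apply, AddSubmonoidClass.coe_finsetSum, LinearMap.zero_apply, ZeroMemClass.coe_zero]
    refine Eq.trans ?_ (hkill y.1 y.2)
    rw [LinearMap.sum_apply]
    exact Finset.sum_congr rfl fun i _ => by rw [hTv, hx₁, Subgroup.coe_pow, map_pow])
  set N := L₁.ker with hN
  have hNσ : N.map σR.toMonoidHom = N := by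
    refine Subgroup.eq_of_le_of_card_ge ?_
      (Subgroup.card_map_of_injective (f := σR.toMonoidHom) σR.injective).ge
    rintro _ ⟨s, hs, rfl⟩
    rw [SetLike.mem_coe, MonoidHom.mem_ker] at hs
    rw [MonoidHom.mem_ker]
    calc L₁ (σR s) = L₁ (σR s) * T * T ^ (p ^ f - 1) := by rw [mul_assoc, hTinv, mul_one]
      _ = 1 := by rw [← hTL₁, hs, mul_one, hTinv]
  let L : R ⧸ N →* Module.End k W := QuotientGroup.lift N L₁ le_rfl
  have hLinj : Function.Injective L := by
    rw [injective_iff_map_eq_one]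
    intro y hy
    induction y using QuotientGroup.induction_on with
    | _ s => exact (QuotientGroup.eq_one_iff s).2 hy
  let σ : MulAut (R ⧸ N) := QuotientGroup.congr N N σR hNσ
  have hσmk : ∀ (i : ℕ) (s : R), (σ ^ i) (s : R ⧸ N) = ((c (x₁ ^ i) s : R) : R ⧸ N) := by
    intro i
    induction i with
    | zero => intro s; rw [pow_zero, pow_zero, map_one]; rfl
    | succ i ih =>
      intro s
      rw [pow_succ', pow_succ', MulAut.mul_apply, ih, map_mul, MulAut.mul_apply]
      rfl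
  have hσf : σ ^ p ^ f = 1 := MulEquiv.ext fun y => by
    induction y using QuotientGroup.induction_on with
    | _ s => rw [hσmk, hfp, map_one]; rfl
  have hTL : ∀ y, T * L y = L (σ y) * T := fun y => by
    induction y using QuotientGroup.induction_on with
    | _ s => exact hTL₁ s
  have hmkc : ∀ a b : R, ⁅(a : R ⧸ N), (b : R ⧸ N)⁆ = ((⁅a, b⁆ : R) : R ⧸ N) := fun a b =>
    (map_commutatorElement (QuotientGroup.mk' N) a b).symm
  have hcommS : ∀ y y' : R ⧸ N, ⁅y, y'⁆ ∈ Subgroup.center (R ⧸ N) := fun y y' => by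
    induction y using QuotientGroup.induction_on with
    | _ a =>
      induction y' using QuotientGroup.induction_on with
      | _ b =>
        refine Subgroup.mem_center_iff.2 fun t => ?_
        induction t using QuotientGroup.induction_on with
        | _ r =>
          rw [hmkc, ← QuotientGroup.mk_mul, ← QuotientGroup.mk_mul, Subgroup.mem_center_iff.1 (hcomm a b) r]
  have hLz : ∀ a : Subgroup.center R, L₁ a = (χ a : k) • 1 := fun a =>
    LinearMap.ext fun y => Subtype.ext (y.2 a)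
  obtain ⟨y₀, hy₀⟩ := exists_ne (0 : W)
  have hrad : ∀ s : R, (s : R ⧸ N) ∈ Subgroup.center (R ⧸ N) ↔ Rad χ s := by
    intro s
    rw [Subgroup.mem_center_iff]
    constructor
    · intro h t w hw
      have h0 : ⁅(s : R ⧸ N), (t : R ⧸ N)⁆ = 1 := commutatorElement_eq_one_iff_mul_comm.2 (h _).symm
      rw [hmkc, ← hw, QuotientGroup.eq_one_iff, MonoidHom.mem_ker, hLz] at h0
      refine Units.ext (smul_left_injective k hy₀ ?_)
      simpa using LinearMap.congr_fun h0 y₀
    · intro h t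
      induction t using QuotientGroup.induction_on with
      | _ t =>
        refine (commutatorElement_eq_one_iff_mul_comm.1 ?_).symm
        rw [hmkc, QuotientGroup.eq_one_iff, MonoidHom.mem_ker,
          show L₁ ⁅s, t⁆ = (χ ⟨⁅s, t⁆, hcomm s t⟩ : k) • 1 from hLz ⟨_, hcomm s t⟩, h t ⟨_, hcomm s t⟩ rfl,
          Units.val_one, one_smul]
  set zM := cM ⟨⟨z, hz.mem⟩, hzS⟩ with hzM
  set τc := c ⟨z, hz.mem⟩ with hτc
  have hτmk : ∀ s : R, (σ ^ p ^ (f - 1)) (s : R ⧸ N) = ((τc s : R) : R ⧸ N) := fun s => by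
    rw [hσmk, hfz]
  have hτS : ∀ y y' : R ⧸ N, (σ ^ p ^ (f - 1)) ⁅y, y'⁆ = ⁅y, y'⁆ := fun y y' => by
    induction y using QuotientGroup.induction_on with
    | _ a =>
      induction y' using QuotientGroup.induction_on with
      | _ b => rw [hmkc, hτmk]; exact congrArg _ (hz.fix_center hinj R hRk c hcv ⟨_, hcomm a b⟩)
  have hscal : ∀ y y' : R ⧸ N, ∃ d : k, L ⁅y, y'⁆ = d • 1 := fun y y' => by
    induction y using QuotientGroup.induction_on with
    | _ a =>
      induction y' using QuotientGroup.induction_on with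
      | _ b => exact ⟨χ ⟨_, hcomm a b⟩, by rw [hmkc]; exact hLz ⟨_, hcomm a b⟩⟩
  -- elements fixed modulo the centre
  let C₀ : Subgroup R := (fixSub zM).comap π
  have hC₀ : ∀ s : R, s ∈ C₀ ↔
      ((σ ^ p ^ (f - 1)) (s : R ⧸ N)) * (s : R ⧸ N)⁻¹ ∈ Subgroup.center (R ⧸ N) := fun s => by
    rw [hτmk, ← QuotientGroup.mk_inv, ← QuotientGroup.mk_mul, hrad, ← hker, map_mul, map_inv, mul_inv_eq_one,
      Subgroup.mem_comap, mem_fixSub, hzM, hcM]
  let C : Subgroup (R ⧸ N) := C₀.map (QuotientGroup.mk' N)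
  have hNC₀ : N ≤ C₀ := fun s hs => by
    rw [hC₀, (QuotientGroup.eq_one_iff s).2 hs, map_one, inv_one, mul_one]
    exact one_mem _
  have hCc : C.comap (QuotientGroup.mk' N) = C₀ := by
    rw [Subgroup.comap_map_eq, QuotientGroup.ker_mk', sup_eq_left.2 hNC₀]
  have hC : ∀ y, y ∈ C ↔ (σ ^ p ^ (f - 1)) y * y⁻¹ ∈ Subgroup.center (R ⧸ N) := fun y => by
    induction y using QuotientGroup.induction_on with
    | _ s => exact (Subgroup.ext_iff.1 hCc s).trans (hC₀ s)
  have hidx : (fixSub zM).index = C.index := by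
    rw [← Subgroup.index_comap_of_surjective (fixSub zM) hπ,
      ← Subgroup.index_comap_of_surjective C (QuotientGroup.mk'_surjective N), hCc]
  have hSdvd : Nat.card (R ⧸ N) ∣ Nat.card R := Subgroup.card_quotient_dvd_card N
  rcases fixed_mod_center_two (q := q) hp2 (hRq.to_quotient N)
      (CfsgLib.FpfAut.natCast_ne_zero_of_dvd hSdvd hRk) L hLinj hcommS hscal σ hσf T hT hTL hTsum hτS C hC with
    h | ⟨i, hi, hqi, h, hfixC⟩
  · left
    rw [h, Subgroup.index_top, Subgroup.index_eq_one] at hidx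
    exact MulEquiv.ext fun m => mem_fixSub.1 (hidx ▸ Subgroup.mem_top m)
  subst hp2
  refine Or.inr ⟨j + i, by omega, by rw [show n + 1 - (j + i) = f - i by omega]; exact hqi,
    by rw [pow_add, pow_mul]; exact pow_mem hx₁S _, ?_, ?_⟩
  · exact hidx ▸ h
  intro m hm
  obtain ⟨s, rfl⟩ := hπ m
  have hs : (s : R ⧸ N) ∈ C := ⟨s, hm, rfl⟩
  have h1 := hfixC _ hs
  rw [hσmk, ← QuotientGroup.mk_inv, ← QuotientGroup.mk_mul, hrad, ← hker, map_mul, map_inv, mul_inv_eq_one] at h1
  rw [hcM]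
  refine Eq.trans ?_ h1
  refine congrArg (fun y : P => π (c y s)) ?_
  show xP ^ 2 ^ (j + i) = x₁ ^ 2 ^ i
  rw [hx₁, ← pow_mul, ← pow_add]

/-- A pinched element is trivial on a weight piece, or has a square root trivial on its fixed points. -/
theorem exists_root [FiniteDimensional k V] {p : ℕ} [hp : Fact p.Prime] [CharP k p] (hp2 : p = 2)
    {q : ℕ} [hq : Fact q.Prime]
    (ρ : H →* Module.End k V) (hinj : Function.Injective ρ) (P : Subgroup H) (R : Subgroup H)
    (hRq : IsPGroup q R) (hRk : (Nat.card R : k) ≠ 0) (hcomm : ∀ s t : R, ⁅s, t⁆ ∈ Subgroup.center R)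
    (c : P →* MulAut R) (hcv : ∀ (y : P) (s : R), ((c y s : R) : H) = y * s * (y : H)⁻¹)
    (χ : Subgroup.center R →* kˣ) {u : V} (hu : u ≠ 0)
    (hχu : ∀ a : Subgroup.center R, ρ ((a : R) : H) u = (χ a : k) • u)
    (St : Subgroup P) (hSt : ∀ y : P, y ∈ St ↔ ∀ a, χ (centerAut (c y) a) = χ a)
    {M : Type u} [CommGroup M] (π : R →* M) (hπ : Function.Surjective π) (hker : ∀ s, π s = 1 ↔ Rad χ s)
    (cM : St →* MulAut M) (hcM : ∀ (y : St) (s : R), cM y (π s) = π (c y s))
    {z : H} (hz : Pinched p ρ P z) (hzS : (⟨z, hz.mem⟩ : P) ∈ St) :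
    cM ⟨⟨z, hz.mem⟩, hzS⟩ = 1 ∨ ∃ y : St, (∃ i : ℕ, y ^ 2 ^ (i + 1) = ⟨⟨z, hz.mem⟩, hzS⟩) ∧
      (fixSub (cM ⟨⟨z, hz.mem⟩, hzS⟩)).index ≤ q ^ 2 ∧
      ∀ m ∈ fixSub (cM ⟨⟨z, hz.mem⟩, hzS⟩), cM y m = m := by
  classical
  obtain ⟨x, hx, n, hxz, hzp, hsum⟩ := id hz
  subst hxz
  rcases exists_root_exact (q := q) hp2 ρ hinj P R hRq hRk hcomm c hcv χ hu hχu St hSt π hπ hker cM hcM hx hzp hsum
    hzS with h | ⟨j, hj, -, hy, h1, h2⟩
  · exact Or.inl h
  subst hp2
  refine Or.inr ⟨⟨_, hy⟩, ⟨n - j - 1, Subtype.ext ?_⟩, h1, h2⟩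
  show ((⟨x, hx⟩ : P) ^ 2 ^ j) ^ 2 ^ (n - j - 1 + 1) = (⟨x, hx⟩ : P) ^ 2 ^ n
  rw [← pow_mul, ← pow_add, show j + (n - j - 1 + 1) = n by omega]

end Setting

end CfsgLib.PLengthGross
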