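import Mathlib
import Cfsg.Agent.PLengthExp.CommuteSmall
import Cfsg.Agent.PGroup.Normal
import Cfsg.Agent.TwoGroup.NormalRankOne
import Cfsg.Agent.TwoGroup.UniqueInvolution

/-!
Involutions with small support in a 2-group of isometries of a nondegenerate alternating pairing on an
abelian group of odd prime power order.
-/

set_option autoImplicit false

namespace CfsgLib.PLengthGross

open CfsgLib.PLengthExp

universe v w

variable {A : Type v} [CommGroup A] {M : Type w} [CommGroup M]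

/-- Alternating and nondegenerate. -/
def IsAlt (β : M →* M →* A) : Prop :=
  (∀ x, β x x = 1) ∧ ∀ x, (∀ y, β x y = 1) → x = 1

/-- The pairing is preserved. -/
def Isom (β : M →* M →* A) (σ : MulAut M) : Prop := ∀ x y, β (σ x) (σ y) = β x y

/-- The points inverted by an automorphism. -/
def negSub (σ : MulAut M) : Subgroup M where
  carrier := {x | σ x = x⁻¹}
  one_mem' := by show σ 1 = 1⁻¹; rw [map_one, inv_one]
  mul_mem' := fun {a b} ha hb => by
    show σ (a * b) = (a * b)⁻¹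
    rw [map_mul, show σ a = a⁻¹ from ha, show σ b = b⁻¹ from hb, mul_inv]
  inv_mem' := fun {a} ha => by
    show σ a⁻¹ = a⁻¹⁻¹
    rw [map_inv, show σ a = a⁻¹ from ha]

theorem mem_negSub {σ : MulAut M} {x : M} : x ∈ negSub σ ↔ σ x = x⁻¹ := Iff.rfl

theorem mem_presSub_neg_of_commute {ω σ : MulAut M} (h : σ * ω = ω * σ) : σ ∈ presSub (negSub ω) := by
  intro x
  have h1 : σ (ω x) = ω (σ x) := DFunLike.congr_fun h x
  rw [mem_negSub, mem_negSub, ← h1, ← map_inv]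
  exact σ.injective.eq_iff.symm

/-- The restriction of a pairing. -/
def resPair (β : M →* M →* A) (N : Subgroup M) : N →* N →* A :=
  MonoidHom.mk' (fun x => (β (x : M)).comp N.subtype) fun x y => by
    ext z
    simp

theorem resPair_apply (β : M →* M →* A) (N : Subgroup M) (x y : N) :
    resPair β N x y = β (x : M) (y : M) := rfl

variable [Finite M] {q : ℕ} [hq : Fact q.Prime]

theorem not_two_dvd (hq2 : q ≠ 2) (hM : IsPGroup q M) : ¬ 2 ∣ Nat.card M := by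
  obtain ⟨i, hi⟩ := IsPGroup.iff_card.1 hM
  rw [hi]
  exact fun h => hq2 ((Nat.prime_dvd_prime_iff_eq Nat.prime_two hq.out).1
    (Nat.prime_two.dvd_of_dvd_pow h)).symm

theorem eq_one_of_sq (hq2 : q ≠ 2) (hM : IsPGroup q M) {x : M} (h : x ^ 2 = 1) : x = 1 :=
  haveI := Fact.mk Nat.prime_two
  eq_one_of_pow_eq_one (p := 2) (not_two_dvd hq2 hM) h

theorem exists_sq (hq2 : q ≠ 2) (hM : IsPGroup q M) (x : M) : ∃ y : M, y ^ 2 = x :=
  haveI := Fact.mk Nat.prime_two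
  pow_p_surjective (p := 2) (not_two_dvd hq2 hM) x

theorem fix_neg_eq_one (hq2 : q ≠ 2) (hM : IsPGroup q M) {σ : MulAut M} {x : M}
    (h1 : x ∈ fixSub σ) (h2 : x ∈ negSub σ) : x = 1 := by
  refine eq_one_of_sq hq2 hM ?_
  rw [sq]
  nth_rw 2 [← mem_fixSub.1 h1]
  rw [mem_negSub.1 h2, mul_inv_cancel]

omit [Finite M] in
theorem mul_apply_mem {σ : MulAut M} (hσ : σ ^ 2 = 1) (x : M) :
    x * σ x ∈ fixSub σ ∧ x * (σ x)⁻¹ ∈ negSub σ := by
  have h : σ (σ x) = x := by rw [← MulAut.mul_apply, ← sq, hσ, MulAut.one_apply]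
  constructor
  · rw [mem_fixSub, map_mul, h, mul_comm]
  · rw [mem_negSub, map_mul, map_inv, h, mul_inv, inv_inv, mul_comm]

omit [Finite M] in
theorem sq_eq_mul (σ : MulAut M) (x : M) : x ^ 2 = x * σ x * (x * (σ x)⁻¹) := by
  rw [mul_mul_mul_comm, mul_inv_cancel, mul_one, sq]

/-- Agreement on the fixed and on the inverted points is agreement. -/
theorem ext_fix_neg (hq2 : q ≠ 2) (hM : IsPGroup q M) {σ : MulAut M} (hσ : σ ^ 2 = 1) {f g : MulAut M}
    (hF : ∀ x ∈ fixSub σ, f x = g x) (hN : ∀ x ∈ negSub σ, f x = g x) : f = g := by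
  refine MulEquiv.ext fun y => ?_
  obtain ⟨x, rfl⟩ := exists_sq hq2 hM y
  rw [sq_eq_mul σ x, map_mul f, map_mul g, hF _ (mul_apply_mem hσ x).1, hN _ (mul_apply_mem hσ x).2]

/-- The index of the fixed points is the number of inverted points. -/
theorem index_fixSub_eq (hq2 : q ≠ 2) (hM : IsPGroup q M) {σ : MulAut M} (hσ : σ ^ 2 = 1) :
    (fixSub σ).index = Nat.card (negSub σ) := by
  let f : fixSub σ × negSub σ → M := fun a => (a.1 : M) * a.2
  have hf : Function.Bijective f := by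
    constructor
    · rintro ⟨a, b⟩ ⟨a', b'⟩ h
      have h1 : (a' : M)⁻¹ * a = b' * (b : M)⁻¹ := by
        rw [eq_mul_inv_iff_mul_eq, mul_assoc, inv_mul_eq_iff_eq_mul]
        exact h
      have h2 := fix_neg_eq_one hq2 hM (x := (a' : M)⁻¹ * a) (mul_mem (inv_mem a'.2) a.2)
        (h1 ▸ mul_mem b'.2 (inv_mem b.2))
      rw [h2] at h1
      exact Prod.ext (Subtype.ext (inv_mul_eq_one.1 h2).symm) (Subtype.ext (mul_inv_eq_one.1 h1.symm).symm)
    · intro y
      obtain ⟨x, rfl⟩ := exists_sq hq2 hM y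
      exact ⟨(⟨_, (mul_apply_mem hσ x).1⟩, ⟨_, (mul_apply_mem hσ x).2⟩), (sq_eq_mul σ x).symm⟩
  have h := Nat.card_eq_of_bijective f hf
  rw [Nat.card_prod] at h
  exact Nat.eq_of_mul_eq_mul_left Nat.card_pos ((fixSub σ).card_mul_index.trans h.symm)

variable {β : M →* M →* A}

theorem beta_fix_neg (hq2 : q ≠ 2) (hM : IsPGroup q M) {σ : MulAut M} (hσ : Isom β σ) {f n : M}
    (hf : f ∈ fixSub σ) (hn : n ∈ negSub σ) : β f n = 1 ∧ β n f = 1 := by
  have key : ∀ a : A, a = a⁻¹ → a ^ Nat.card M = 1 → a = 1 := fun a h1 h2 =>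
    orderOf_eq_one_iff.1 (Nat.eq_one_of_dvd_coprimes
      ((Nat.Prime.coprime_iff_not_dvd Nat.prime_two).2 (not_two_dvd hq2 hM))
      (orderOf_dvd_of_pow_eq_one (show a ^ 2 = 1 by rw [sq]; nth_rw 1 [h1]; exact inv_mul_cancel a))
      (orderOf_dvd_of_pow_eq_one h2))
  refine ⟨key _ ?_ (by rw [← map_pow, pow_card_eq_one', map_one]),
    key _ ?_ (by rw [← map_pow, pow_card_eq_one', map_one])⟩
  · conv_lhs => rw [← hσ f n, mem_fixSub.1 hf, mem_negSub.1 hn, map_inv]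
  · conv_lhs => rw [← hσ n f, mem_fixSub.1 hf, mem_negSub.1 hn, map_inv, MonoidHom.inv_apply]

theorem isAlt_res (hq2 : q ≠ 2) (hM : IsPGroup q M) (hβ : IsAlt β) {σ : MulAut M} (hσ2 : σ ^ 2 = 1)
    (hσ : Isom β σ) :
    IsAlt (resPair β (fixSub σ)) ∧ IsAlt (resPair β (negSub σ)) := by
  refine ⟨⟨fun x => hβ.1 _, fun x hx => Subtype.ext (hβ.2 _ fun y => ?_)⟩,
    ⟨fun x => hβ.1 _, fun x hx => Subtype.ext (hβ.2 _ fun y => ?_)⟩⟩
  · obtain ⟨y, rfl⟩ := exists_sq hq2 hM y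
    rw [sq_eq_mul σ y, map_mul, (beta_fix_neg hq2 hM hσ x.2 (mul_apply_mem hσ2 y).2).1, mul_one]
    exact hx ⟨_, (mul_apply_mem hσ2 y).1⟩
  · obtain ⟨y, rfl⟩ := exists_sq hq2 hM y
    rw [sq_eq_mul σ y, map_mul, (beta_fix_neg hq2 hM hσ (mul_apply_mem hσ2 y).1 x.2).2, one_mul]
    exact hx ⟨_, (mul_apply_mem hσ2 y).2⟩

/-- A nondegenerate alternating group has order at least `q ^ 2`. -/
theorem sq_le_card (hM : IsPGroup q M) (hβ : IsAlt β) {x : M} (hx : x ≠ 1) : q ^ 2 ≤ Nat.card M := by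
  obtain ⟨i, hi⟩ := IsPGroup.iff_card.1 hM
  rw [hi]
  refine Nat.pow_le_pow_right hq.out.pos ?_
  by_contra hlt
  have hox : orderOf x ∣ q ^ i := hi ▸ orderOf_dvd_natCard x
  interval_cases i
  · exact hx (orderOf_eq_one_iff.1 (Nat.dvd_one.1 (by simpa using hox)))
  · have h1 : orderOf x = q := by
      rcases (Nat.dvd_prime hq.out).1 (by simpa using hox) with h | h
      · exact absurd (orderOf_eq_one_iff.1 h) hx
      · exact h
    have htop : Subgroup.zpowers x = ⊤ :=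
      Subgroup.eq_top_of_card_eq _ (by rw [Nat.card_zpowers, h1, hi, pow_one])
    refine hx (hβ.2 x fun y => ?_)
    obtain ⟨l, rfl⟩ := Subgroup.mem_zpowers_iff.1 (htop ▸ Subgroup.mem_top y : y ∈ Subgroup.zpowers x)
    rw [map_zpow, hβ.1, one_zpow]

/-- The inverted points of a nontrivial involution on an invariant nondegenerate subgroup. -/
theorem sq_le_card_inf (hq2 : q ≠ 2) (hM : IsPGroup q M) {N : Subgroup M} (hβN : IsAlt (resPair β N))
    {u : MulAut M} (hu2 : u ^ 2 = 1) (hu : Isom β u) (huN : u ∈ presSub N) {x : M} (hx : x ∈ N)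
    (hux : u x ≠ x) : q ^ 2 ≤ Nat.card (negSub u ⊓ N : Subgroup M) := by
  set uN := resAut N ⟨u, huN⟩ with huN'
  have h2 : uN ^ 2 = 1 := by
    rw [huN', ← map_pow, show (⟨u, huN⟩ : presSub N) ^ 2 = 1 from Subtype.ext hu2, map_one]
  have hiso : Isom (resPair β N) uN := fun a b => hu _ _
  have hmem : (uN ⟨x, hx⟩)⁻¹ * ⟨x, hx⟩ ∈ negSub uN := by
    rw [mul_comm]
    exact (mul_apply_mem h2 ⟨x, hx⟩).2
  have hne : (⟨_, hmem⟩ : negSub uN) ≠ 1 := fun h =>
    hux (congrArg Subtype.val (inv_mul_eq_one.1 (congrArg Subtype.val h)))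
  refine (sq_le_card ((hM.to_subgroup N).to_subgroup _) (isAlt_res hq2 (hM.to_subgroup N) hβN h2 hiso).2 hne).trans ?_
  refine Nat.card_le_card_of_injective
    (fun a : negSub uN => (⟨((a : N) : M), Subgroup.mem_inf.2 ⟨congrArg Subtype.val a.2, (a : N).2⟩⟩ :
      (negSub u ⊓ N : Subgroup M))) ?_
  intro a b h
  exact Subtype.ext (Subtype.ext (congrArg Subtype.val h :))

/-- The inductive step on an invariant nondegenerate subgroup. -/
theorem commute_on {P : Subgroup (MulAut M)} (hP : IsPGroup 2 P) (hPβ : ∀ σ ∈ P, Isom β σ) {N : Subgroup M}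
    (ih : ∀ (Q : Subgroup (MulAut N)), IsPGroup 2 Q → (∀ σ ∈ Q, Isom (resPair β N) σ) →
      ∀ u ∈ Q, ∀ v ∈ Q, u ^ 2 = 1 → v ^ 2 = 1 → (∃ σ ∈ Q, σ ^ 2 = u) → (∃ σ ∈ Q, σ ^ 2 = v) →
        (fixSub u).index ≤ q ^ 2 → (fixSub v).index ≤ q ^ 2 → u * v = v * u)
    {s t u v : MulAut M} (hs : s ∈ P) (ht : t ∈ P) (hsN : s ∈ presSub N) (htN : t ∈ presSub N)
    (hsu : s ^ 2 = u) (htv : t ^ 2 = v) (hu2 : u ^ 2 = 1) (hv2 : v ^ 2 = 1)
    (hui : (fixSub u).index ≤ q ^ 2) (hvi : (fixSub v).index ≤ q ^ 2) :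
    ∀ x ∈ N, u (v x) = v (u x) := by
  intro x hx
  subst hsu htv
  have hQ : IsPGroup 2 ((P.subgroupOf (presSub N)).map (resAut N)) := hP.comap_subtype.map _
  have h := DFunLike.congr_fun (ih _ hQ
    (by rintro _ ⟨σ, hσ, rfl⟩ a b; exact hPβ _ hσ _ _)
    (resAut N (⟨s, hsN⟩ ^ 2)) ⟨_, pow_mem (show (⟨s, hsN⟩ : presSub N) ∈ P.subgroupOf _ from hs) 2, rfl⟩
    (resAut N (⟨t, htN⟩ ^ 2)) ⟨_, pow_mem (show (⟨t, htN⟩ : presSub N) ∈ P.subgroupOf _ from ht) 2, rfl⟩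
    (by rw [← map_pow, show ((⟨s, hsN⟩ : presSub N) ^ 2) ^ 2 = 1 from Subtype.ext hu2, map_one])
    (by rw [← map_pow, show ((⟨t, htN⟩ : presSub N) ^ 2) ^ 2 = 1 from Subtype.ext hv2, map_one])
    ⟨resAut N ⟨s, hsN⟩, ⟨_, hs, rfl⟩, (map_pow _ _ _).symm⟩
    ⟨resAut N ⟨t, htN⟩, ⟨_, ht, rfl⟩, (map_pow _ _ _).symm⟩
    ((index_fixSub_res_le N (pow_mem hsN 2)).trans hui)
    ((index_fixSub_res_le N (pow_mem htN 2)).trans hvi)) ⟨x, hx⟩
  exact congrArg Subtype.val h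

theorem commute_of_sq : ∀ (n : ℕ) (M : Type w) [CommGroup M] [Finite M],
    Nat.card M = n → q ≠ 2 → IsPGroup q M → ∀ (β : M →* M →* A), IsAlt β →
    ∀ (P : Subgroup (MulAut M)), IsPGroup 2 P → (∀ σ ∈ P, Isom β σ) →
    ∀ u ∈ P, ∀ v ∈ P, u ^ 2 = 1 → v ^ 2 = 1 → (∃ σ ∈ P, σ ^ 2 = u) → (∃ σ ∈ P, σ ^ 2 = v) →
      (fixSub u).index ≤ q ^ 2 → (fixSub v).index ≤ q ^ 2 → u * v = v * u := by
  intro n
  induction n using Nat.strong_induction_on with
  | _ n ih =>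
  intro M _ _ hn hq2 hM β hβ P hP hPβ u hu v hv hu2 hv2 hsu hsv hui hvi
  classical
  haveI := Fact.mk Nat.prime_two
  by_cases hab : ∀ a ∈ P, ∀ b ∈ P, a * b = b * a
  · exact hab u hu v hv
  obtain ⟨s, hs, hsu⟩ := hsu
  obtain ⟨t, ht, htv⟩ := hsv
  have step : ∀ (N : Subgroup M), N ≠ ⊤ → IsAlt (resPair β N) → s ∈ presSub N → t ∈ presSub N →
      ∀ x ∈ N, u (v x) = v (u x) := fun N hN hβN hsN htN =>
    commute_on hP hPβ (fun Q hQ hQi => ih _ (hn ▸ lt_of_le_of_ne (Subgroup.card_le_card_group N)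
      fun h => hN (Subgroup.eq_top_of_card_eq N h)) N rfl hq2 (hM.to_subgroup N) (resPair β N) hβN Q hQ hQi)
      hs ht hsN htN hsu htv hu2 hv2 hui hvi
  have halves : ∀ w : MulAut M, w ∈ P → w ^ 2 = 1 → w ≠ 1 → fixSub w ≠ ⊥ → s * w = w * s → t * w = w * t →
      u * v = v * u := by
    intro w hw hw2 hw1 hfix hsw htw
    obtain ⟨h1, h2⟩ := isAlt_res hq2 hM hβ hw2 (hPβ w hw)
    refine ext_fix_neg hq2 hM hw2
      (step _ ?_ h1 (mem_presSub_of_commute hsw) (mem_presSub_of_commute htw))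
      (step _ ?_ h2 (mem_presSub_neg_of_commute hsw) (mem_presSub_neg_of_commute htw))
    · exact fun h => hw1 (MulEquiv.ext fun x => mem_fixSub.1 (h ▸ Subgroup.mem_top x))
    · exact fun h => hfix ((Subgroup.eq_bot_iff_forall _).2 fun x hx =>
        fix_neg_eq_one hq2 hM hx (h ▸ Subgroup.mem_top x))
  by_cases hsplit : ∃ w ∈ P, (∀ a ∈ P, a * w = w * a) ∧ w ^ 2 = 1 ∧ w ≠ 1 ∧ fixSub w ≠ ⊥
  · obtain ⟨w, hw, hwc, hw2, hw1, hfix⟩ := hsplit
    exact halves w hw hw2 hw1 hfix (hwc s hs) (hwc t ht)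
  push Not at hsplit
  -- every central involution is the inversion
  have hinv : ∀ w ∈ P, (∀ a ∈ P, a * w = w * a) → w ^ 2 = 1 → w ≠ 1 → ∀ x, w x = x⁻¹ := by
    intro w hw hwc hw2 hw1 x
    have h := (Subgroup.eq_bot_iff_forall _).1 (hsplit w hw hwc hw2 hw1) _ (mul_apply_mem hw2 x).1
    exact eq_inv_of_mul_eq_one_right h
  by_cases hrank : ∀ B : Subgroup P, B.Normal → IsMulCommutative B → IsCyclic B
  · have hnc : ¬ IsCyclic P := fun h => hab fun a ha b hb => by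
      letI : CommGroup P := IsCyclic.commGroup
      exact congrArg Subtype.val (mul_comm (⟨a, ha⟩ : P) ⟨b, hb⟩)
    obtain ⟨k, r, z, -, -, ⟨F⟩⟩ :=
      (CfsgLib.TwoGroup.isMaxClassType_of_normal_rank_one hP hnc hrank).exists_maxType_frame
    have hsq : ∀ g : P, ∃ i, g ^ 2 = F.e i := fun g => by
      obtain ⟨i, rfl | rfl⟩ := F.cover g
      · exact ⟨i + i, by rw [sq, F.map_add]⟩
      · exact ⟨_, F.ey_sq i⟩
    obtain ⟨i, hi⟩ := hsq ⟨s, hs⟩
    obtain ⟨j, hj⟩ := hsq ⟨t, ht⟩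
    rw [← hsu, ← htv]
    exact congrArg Subtype.val (show (⟨s, hs⟩ : P) ^ 2 * ⟨t, ht⟩ ^ 2 = ⟨t, ht⟩ ^ 2 * ⟨s, hs⟩ ^ 2 by
      rw [hi, hj]; exact (F.comm_e i j).eq)
  push Not at hrank
  obtain ⟨B, hBn, hBc, hBnc⟩ := hrank
  haveI := hBn
  -- the inversion
  haveI : Nontrivial P := by
    by_contra h
    rw [not_nontrivial_iff_subsingleton] at h
    exact hab fun a ha b hb => congrArg Subtype.val (Subsingleton.elim (⟨a, ha⟩ * ⟨b, hb⟩ : P) (⟨b, hb⟩ * ⟨a, ha⟩))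
  obtain ⟨ι, hιc, hι⟩ : ∃ ι : P, ι ∈ Subgroup.center P ∧ orderOf ι = 2 := by
    haveI := hP.center_nontrivial
    obtain ⟨l, hl, hl'⟩ := (hP.to_subgroup (Subgroup.center P)).nontrivial_iff_card.1 inferInstance
    obtain ⟨a, ha⟩ := exists_prime_orderOf_dvd_card' 2
      (show 2 ∣ Nat.card (Subgroup.center P) by rw [hl']; exact dvd_pow_self 2 hl.ne')
    exact ⟨a, a.2, by rw [Subgroup.orderOf_coe]; exact ha⟩
  have hι2 : (ι : MulAut M) ^ 2 = 1 := congrArg Subtype.val (by rw [← hι, pow_orderOf_eq_one] : ι ^ 2 = 1)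
  have hι1 : (ι : MulAut M) ≠ 1 := fun h => by
    rw [show ι = 1 from Subtype.ext h, orderOf_one] at hι
    exact absurd hι (by norm_num)
  have hιc' : ∀ a ∈ P, a * (ι : MulAut M) = ι * a := fun a ha =>
    congrArg Subtype.val (Subgroup.mem_center_iff.1 hιc ⟨a, ha⟩)
  have hιx : ∀ x, (ι : MulAut M) x = x⁻¹ := hinv _ ι.2 hιc' hι2 hι1
  have hcent2 : ∀ a : P, a ∈ Subgroup.center P → a ^ 2 = 1 → a = 1 ∨ a = ι := by
    intro a hac ha2
    rcases eq_or_ne (a : MulAut M) 1 with h | h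
    · exact Or.inl (Subtype.ext h)
    · refine Or.inr (Subtype.ext (MulEquiv.ext fun x => ?_))
      rw [hιx, hinv _ a.2 (fun c hc => congrArg Subtype.val (Subgroup.mem_center_iff.1 hac ⟨c, hc⟩))
        (congrArg Subtype.val ha2) h]
  -- an involution with two conjugates
  obtain ⟨b, hb2, hb1, hbι, hbconj⟩ : ∃ b : P, b ^ 2 = 1 ∧ b ≠ 1 ∧ b ≠ ι ∧
      ∀ a : P, a * b * a⁻¹ = b ∨ a * b * a⁻¹ = b * ι := by
    let E : Subgroup P :=
      { carrier := {a | a ∈ B ∧ a ^ 2 = 1}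
        one_mem' := ⟨one_mem _, one_pow 2⟩
        mul_mem' := fun {a c} ha hc => ⟨mul_mem ha.1 hc.1, by
          rw [(show Commute a c from congrArg Subtype.val (hBc.is_comm.comm ⟨a, ha.1⟩ ⟨c, hc.1⟩)).mul_pow,
            ha.2, hc.2, one_mul]⟩
        inv_mem' := fun {a} ha => ⟨inv_mem ha.1, by rw [inv_pow, ha.2, inv_one]⟩ }
    haveI : E.Normal := ⟨fun a ha c => ⟨hBn.conj_mem a ha.1 c, by rw [conj_pow, ha.2, mul_one, mul_inv_cancel]⟩⟩
    haveI : (Subgroup.zpowers ι).Normal := ⟨fun a ha c => by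
      obtain ⟨l, rfl⟩ := ha
      show c * ι ^ l * c⁻¹ ∈ _
      rw [← conj_zpow, Subgroup.mem_center_iff.1 hιc c, mul_inv_cancel_right]
      exact ⟨l, rfl⟩⟩
    have hEne : E.map (QuotientGroup.mk' (Subgroup.zpowers ι)) ≠ ⊥ := by
      intro h
      rw [Subgroup.map_eq_bot_iff, QuotientGroup.ker_mk'] at h
      refine hBnc (CfsgLib.TwoGroup.isCyclic_of_comm_atMostOneInvolution (hP.to_subgroup B)
        (fun a c => hBc.is_comm.comm a c) fun a c ha hc => ?_)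
      have key : ∀ a : B, orderOf a = 2 → (a : P) = ι := by
        intro a ha
        obtain ⟨l, hl⟩ := h (show (a : P) ∈ E from ⟨a.2, by
          rw [← ha, ← Subgroup.coe_pow, pow_orderOf_eq_one]; rfl⟩)
        have hl' : ι ^ l = (a : P) := hl
        rcases Int.even_or_odd l with ⟨m, rfl⟩ | ⟨m, rfl⟩
        · rw [← two_mul, zpow_mul, zpow_ofNat, ← hι, pow_orderOf_eq_one, one_zpow] at hl'
          rw [← Subgroup.orderOf_coe, ← hl', orderOf_one] at ha
          omega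
        · rw [zpow_add_one, zpow_mul, zpow_ofNat, ← hι, pow_orderOf_eq_one, one_zpow, one_mul] at hl'
          exact hl'.symm
      exact Subtype.ext ((key a ha).trans (key c hc).symm)
    haveI : (E.map (QuotientGroup.mk' (Subgroup.zpowers ι))).Normal :=
      Subgroup.Normal.map inferInstance _ (QuotientGroup.mk'_surjective _)
    obtain ⟨y, ⟨⟨b, hb, rfl⟩, hyc⟩, hy1⟩ := (Subgroup.bot_or_exists_ne_one _).resolve_left
      (CfsgLib.PGroup.inf_center_ne_bot (hP.to_quotient (Subgroup.zpowers ι)) _ hEne)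
    refine ⟨b, hb.2, fun h => hy1 (by rw [h, map_one]),
      fun h => hy1 ((QuotientGroup.eq_one_iff b).2 (h ▸ Subgroup.mem_zpowers ι)), fun a => ?_⟩
    have h1 : b⁻¹ * (a * b * a⁻¹) ∈ Subgroup.zpowers ι := by
      rw [← QuotientGroup.eq_one_iff]
      simp only [QuotientGroup.mk_mul, QuotientGroup.mk_inv]
      have h2 := Subgroup.mem_center_iff.1 hyc (a : P ⧸ Subgroup.zpowers ι)
      rw [show QuotientGroup.mk' (Subgroup.zpowers ι) b = (b : P ⧸ Subgroup.zpowers ι) from rfl] at h2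
      rw [h2, mul_inv_cancel_right, inv_mul_cancel]
    obtain ⟨l, hl⟩ := h1
    have hl' : ι ^ l = b⁻¹ * (a * b * a⁻¹) := hl
    rcases Int.even_or_odd l with ⟨m, rfl⟩ | ⟨m, rfl⟩
    · rw [← two_mul, zpow_mul, zpow_ofNat, ← hι, pow_orderOf_eq_one, one_zpow] at hl'
      exact Or.inl (inv_mul_eq_one.1 hl'.symm).symm
    · rw [zpow_add_one, zpow_mul, zpow_ofNat, ← hι, pow_orderOf_eq_one, one_zpow, one_mul] at hl'
      exact Or.inr (inv_mul_eq_iff_eq_mul.1 hl'.symm)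
  have hb2' : (b : MulAut M) ^ 2 = 1 := congrArg Subtype.val hb2
  -- a square root of a small involution fixes `b`
  have hroot : ∀ c, c ∈ P → ∀ w, c ^ 2 = w → w ^ 2 = 1 → w ≠ 1 → (fixSub w).index ≤ q ^ 2 → c * b = b * c := by
    intro c hc w hcw hw2 hw1 hwi
    by_contra hne
    rcases hbconj ⟨c, hc⟩ with h | h
    · exact hne (congrArg Subtype.val (mul_inv_eq_iff_eq_mul.1 h))
    have h' : c * b = b * ι * c := congrArg Subtype.val (mul_inv_eq_iff_eq_mul.1 h)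
    have hsw1 : ∀ x ∈ fixSub (b : MulAut M), c x ∈ negSub (b : MulAut M) := fun x hx => by
      have h1 : c (b.1 x) = b.1 (ι.1 (c x)) := DFunLike.congr_fun h' x
      rw [mem_fixSub.1 hx, hιx, map_inv] at h1
      exact mem_negSub.2 (inv_eq_iff_eq_inv.1 h1.symm)
    have hsw2 : ∀ x ∈ negSub (b : MulAut M), c x ∈ fixSub (b : MulAut M) := fun x hx => by
      have h1 : c (b.1 x) = b.1 (ι.1 (c x)) := DFunLike.congr_fun h' x
      rw [mem_negSub.1 hx, hιx, map_inv, map_inv, inv_inj] at h1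
      exact mem_fixSub.2 h1.symm
    have hwb : w * b = b * w := by
      have hιι : (ι : MulAut M) * ι = 1 := by rw [← sq, hι2]
      rw [← hcw, sq, mul_assoc, h', ← mul_assoc, ← mul_assoc, h', mul_assoc (b * ι : MulAut M) c ι,
        hιc' c hc, ← mul_assoc, mul_assoc (b : MulAut M) ι ι, hιι, mul_one, mul_assoc]
    obtain ⟨x, hx, hwx⟩ : ∃ x ∈ fixSub (b : MulAut M), w x ≠ x := by
      by_contra hcon
      push Not at hcon
      refine hw1 (ext_fix_neg hq2 hM hb2' (fun x hx => hcon x hx) fun x hx => c.injective ?_)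
      have h1 := hcon _ (hsw2 x hx)
      rw [← hcw] at h1 ⊢
      rw [MulAut.one_apply]
      exact h1
    have hcard := sq_le_card_inf hq2 hM (isAlt_res hq2 hM hβ hb2' (hPβ _ b.2)).1 hw2
      (hcw ▸ hPβ _ (pow_mem hc 2)) (mem_presSub_of_commute hwb) hx hwx
    have hcwc : ∀ y, w (c y) = c (w y) := fun y => by rw [← hcw]; rfl
    let φ : (negSub w ⊓ fixSub (b : MulAut M) : Subgroup M) × (negSub w ⊓ fixSub (b : MulAut M) : Subgroup M) →
        negSub w := fun a => ⟨(a.1 : M) * c a.2, mul_mem (Subgroup.mem_inf.1 a.1.2).1 (mem_negSub.2 (by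
          rw [hcwc, mem_negSub.1 (Subgroup.mem_inf.1 a.2.2).1, map_inv]))⟩
    have hφ : Function.Injective φ := by
      rintro ⟨a, e⟩ ⟨a', e'⟩ hae
      have h1 : (a : M) * c e = (a' : M) * c e' := congrArg Subtype.val hae
      have h2 : (a' : M)⁻¹ * a = c ((e' : M) * (e : M)⁻¹) := by
        rw [map_mul, map_inv, eq_mul_inv_iff_mul_eq, mul_assoc, inv_mul_eq_iff_eq_mul]
        exact h1
      have h3 := fix_neg_eq_one hq2 hM (x := (a' : M)⁻¹ * a)
        (mul_mem (inv_mem (Subgroup.mem_inf.1 a'.2).2) (Subgroup.mem_inf.1 a.2).2)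
        (h2 ▸ hsw1 _ (mul_mem (Subgroup.mem_inf.1 e'.2).2 (inv_mem (Subgroup.mem_inf.1 e.2).2)))
      rw [h3] at h2
      refine Prod.ext (Subtype.ext (inv_mul_eq_one.1 h3).symm) (Subtype.ext ?_)
      exact (mul_inv_eq_one.1 (c.injective (h2.symm.trans (map_one c).symm))).symm
    have h4 := Nat.card_le_card_of_injective φ hφ
    rw [Nat.card_prod, ← index_fixSub_eq hq2 hM hw2] at h4
    have h5 := (Nat.mul_le_mul hcard hcard).trans (h4.trans hwi)
    have h6 : 1 < q ^ 2 := Nat.one_lt_pow two_ne_zero hq.out.one_lt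
    nlinarith
  rcases eq_or_ne u 1 with rfl | hu1
  · rw [one_mul, mul_one]
  rcases eq_or_ne v 1 with rfl | hv1
  · rw [one_mul, mul_one]
  refine halves b b.2 hb2' (fun h => hb1 (Subtype.ext h)) (fun h => hbι (Subtype.ext (MulEquiv.ext fun x => ?_)))
    (hroot s hs u hsu hu2 hu1 hui) (hroot t ht v htv hv2 hv1 hvi)
  rw [hιx]
  exact eq_inv_of_mul_eq_one_right ((Subgroup.eq_bot_iff_forall _).1 h _ (mul_apply_mem hb2' x).1)

/-- An involution commuting with `u` and different from it is trivial on the points inverted by `u`. -/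
theorem negSub_le_fixSub (hq2 : q ≠ 2) (hM : IsPGroup q M) (hβ : IsAlt β) {u u' : MulAut M}
    (hu2 : u ^ 2 = 1) (hu'2 : u' ^ 2 = 1) (hiu : Isom β u) (hiu' : Isom β u') (hcomm : u' * u = u * u')
    (hne : u ≠ u') (hu : (fixSub u).index ≤ q ^ 2) (hu' : (fixSub u').index ≤ q ^ 2) :
    negSub u ≤ fixSub u' := by
  by_contra hnle
  obtain ⟨x, hx, hx'⟩ := SetLike.not_le_iff_exists.1 hnle
  have h1 := sq_le_card_inf hq2 hM (isAlt_res hq2 hM hβ hu2 hiu).2 hu'2 hiu'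
    (mem_presSub_neg_of_commute hcomm) hx hx'
  rw [index_fixSub_eq hq2 hM hu2] at hu
  rw [index_fixSub_eq hq2 hM hu'2] at hu'
  have e1 : negSub u' ⊓ negSub u = negSub u := Subgroup.eq_of_le_of_card_ge inf_le_right (hu.trans h1)
  have e2 : negSub u' ⊓ negSub u = negSub u' := Subgroup.eq_of_le_of_card_ge inf_le_left (hu'.trans h1)
  have e3 : negSub u = negSub u' := e1.symm.trans e2
  refine hne (ext_fix_neg hq2 hM hu2 (fun y hy => ?_) fun y hy => ?_)
  · rw [mem_fixSub.1 hy]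
    have hFy : u' y ∈ fixSub u := ((mem_presSub_of_commute hcomm) y).1 hy
    have h := fix_neg_eq_one hq2 hM (σ := u) (x := y * (u' y)⁻¹) (mul_mem hy (inv_mem hFy))
      (e3 ▸ (mul_apply_mem hu'2 y).2)
    exact mul_inv_eq_one.1 h
  · rw [mem_negSub.1 hy, mem_negSub.1 (e3 ▸ hy : y ∈ negSub u')]

/-- Automorphisms trivial on the fixed points of two distinct commuting small involutions commute. -/
theorem commute_root (hq2 : q ≠ 2) (hM : IsPGroup q M) (hβ : IsAlt β) {u u' a a' : MulAut M}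
    (hu2 : u ^ 2 = 1) (hu'2 : u' ^ 2 = 1) (hiu : Isom β u) (hiu' : Isom β u') (hcomm : u' * u = u * u')
    (hne : u ≠ u') (hu : (fixSub u).index ≤ q ^ 2) (hu' : (fixSub u').index ≤ q ^ 2)
    (ha : a * u = u * a) (ha' : a' * u' = u' * a')
    (haF : ∀ x ∈ fixSub u, a x = x) (ha'F : ∀ x ∈ fixSub u', a' x = x) : a * a' = a' * a := by
  have h1 := negSub_le_fixSub hq2 hM hβ hu2 hu'2 hiu hiu' hcomm hne hu hu'
  have h2 := negSub_le_fixSub hq2 hM hβ hu'2 hu2 hiu' hiu hcomm.symm hne.symm hu' hu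
  refine ext_fix_neg hq2 hM hu2 (fun y hy => ?_) fun y hy => ?_
  · obtain ⟨x, rfl⟩ := exists_sq hq2 hM y
    have hxF : x ∈ fixSub u := by
      rw [mem_fixSub]
      have h := mem_fixSub.1 hy
      rw [map_pow] at h
      refine mul_inv_eq_one.1 (eq_one_of_sq hq2 hM ?_)
      rw [mul_pow, inv_pow, h, mul_inv_cancel]
    obtain ⟨hf, hn⟩ := mul_apply_mem hu'2 x
    have hf1 : x * u' x ∈ fixSub u := mul_mem hxF ((mem_presSub_of_commute hcomm x).1 hxF)
    have k1 : a (a' (x * u' x)) = a' (a (x * u' x)) := by rw [ha'F _ hf, haF _ hf1, ha'F _ hf]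
    have k2 : a (a' (x * (u' x)⁻¹)) = a' (a (x * (u' x)⁻¹)) := by
      rw [haF _ (h2 hn), haF _ (h2 ((mem_presSub_neg_of_commute ha' _).1 hn))]
    show a (a' (x ^ 2)) = a' (a (x ^ 2))
    rw [sq_eq_mul u' x, map_mul a' (x * u' x), map_mul a (a' (x * u' x)), map_mul a (x * u' x), map_mul a' (a (x * u' x)), k1, k2]
  · show a (a' y) = a' (a y)
    rw [ha'F _ (h1 hy), ha'F _ (h1 ((mem_presSub_neg_of_commute ha y).1 hy))]

end CfsgLib.PLengthGross
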