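import Mathlib
import Cfsg.Agent.PLengthExp.Module
import Cfsg.Agent.PLengthExp.TheoremB
import Cfsg.Agent.PLengthExp.TwoStep
import Cfsg.Agent.Constrained.Fitting
import Cfsg.Agent.PGroup.Critical
import Cfsg.Agent.PGroup.Frattini
import Cfsg.Agent.PLengthGross.Symplectic
import Cfsg.Agent.PLengthGross.Piece

/-!
A pinched power of a 2-element stabilises a normal series of the Sylow 2-subgroup of `O_{2',2}`.
-/

set_option autoImplicit false
set_option maxHeartbeats 400000

open scoped commutatorElement IsMulCommutative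

namespace CfsgLib.PLengthGross

open Cfsg CfsgLib.PLengthExp

universe u v w

variable {k : Type w} [Field k] [IsAlgClosed k] {V : Type v} [AddCommGroup V] [Module k V]
  {H : Type u} [Group H]

/-- The Frattini subgroup of a subgroup. -/
def frattiniOf (X : Subgroup H) : Subgroup H := (frattini X).map X.subtype

theorem frattiniOf_le (X : Subgroup H) : frattiniOf X ≤ X := Subgroup.map_subtype_le _

theorem conj_mem_frattiniOf {X : Subgroup H} {h y : H} (hh : h ∈ Subgroup.normalizer (X : Set H))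
    (hy : y ∈ frattiniOf X) : h * y * h⁻¹ ∈ frattiniOf X := by
  obtain ⟨a, ha, rfl⟩ := hy
  exact ⟨X.normalizerMonoidHom ⟨h, hh⟩ a,
    (Subgroup.characteristic_iff_map_eq.1 inferInstance (X.normalizerMonoidHom ⟨h, hh⟩)).le ⟨a, ha, rfl⟩, rfl⟩

theorem sq_mem_frattiniOf [Finite H] {X : Subgroup H} (hX : IsPGroup 2 X) {y : H} (hy : y ∈ X) :
    y ^ 2 ∈ frattiniOf X :=
  haveI := Fact.mk Nat.prime_two
  ⟨(⟨y, hy⟩ : X) ^ 2, CfsgLib.PGroup.pow_prime_mem_frattini hX _, rfl⟩

theorem eq_of_frattiniOf_sup [Finite H] {X Y : Subgroup H} (hY : Y ≤ X) (h : X ≤ frattiniOf X ⊔ Y) :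
    Y = X := by
  refine le_antisymm hY fun x hx => ?_
  have h1 : Y.subgroupOf X ⊔ frattini X = ⊤ := by
    refine Subgroup.map_injective X.subtype_injective ?_
    rw [Subgroup.map_sup, Subgroup.map_subgroupOf_eq_of_le hY, ← MonoidHom.range_eq_map,
      Subgroup.range_subtype, sup_comm]
    exact le_antisymm (sup_le (frattiniOf_le X) hY) h
  exact (frattini_nongenerating h1).ge (Subgroup.mem_top (⟨x, hx⟩ : X))

variable [Finite H]

/-- A normal `q`-subgroup of class two, `q` odd. -/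
structure Layer (H : Type u) [Group H] where
  q : ℕ
  prime : q.Prime
  ne_two : q ≠ 2
  R : Subgroup H
  normal : R.Normal
  isPGroup : IsPGroup q R
  class_two : ∀ s t : R, ⁅s, t⁆ ∈ Subgroup.center R

/-- Conjugation on a layer. -/
def Layer.act (L : Layer H) : H →* MulAut L.R :=
  haveI := L.normal
  MulAut.conjNormal

omit [Finite H] in
theorem Layer.act_coe (L : Layer H) (h : H) (s : L.R) : ((L.act h s : L.R) : H) = h * s * h⁻¹ := by
  haveI := L.normal
  show ((MulAut.conjNormal h s : L.R) : H) = _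
  rw [MulAut.conjNormal_apply]

/-- The elements fixing the centres of all layers. -/
def fixCenters (H : Type u) [Group H] : Subgroup H where
  carrier := {m | ∀ L : Layer H, ∀ a : L.R, a ∈ Subgroup.center L.R → L.act m a = a}
  one_mem' := fun L a _ => by rw [map_one, MulAut.one_apply]
  mul_mem' := fun {m m'} hm hm' L a ha => by rw [map_mul, MulAut.mul_apply, hm' L a ha, hm L a ha]
  inv_mem' := fun {m} hm L a ha => by
    conv_lhs => rw [← hm L a ha]
    rw [map_inv, MulAut.inv_apply_self]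

omit [Finite H] in
theorem conj_mem_fixCenters {h m : H} (hm : m ∈ fixCenters H) : h * m * h⁻¹ ∈ fixCenters H := by
  intro L a ha
  have h1 : L.act h⁻¹ a ∈ Subgroup.center L.R :=
    (Subgroup.characteristic_iff_map_eq.1 inferInstance (L.act h⁻¹)).le ⟨a, ha, rfl⟩
  rw [map_mul, map_mul, MulAut.mul_apply, MulAut.mul_apply, hm L _ h1, map_inv, MulAut.apply_inv_self]

/-- A weight of the centre of a layer on `V`. -/
structure WeightPiece (ρ : H →* Module.End k V) where
  L : Layer H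
  χ : Subgroup.center L.R →* kˣ
  weight : ∃ u : V, u ≠ 0 ∧ ∀ a : Subgroup.center L.R, ρ ((a : L.R) : H) u = (χ a : k) • u

variable {ρ : H →* Module.End k V}

/-- The radical of the pairing. -/
def WeightPiece.rad (pc : WeightPiece ρ) : Subgroup pc.L.R where
  carrier := {s | ∀ t, pc.χ ⟨⁅s, t⁆, pc.L.class_two s t⟩ = 1}
  one_mem' := fun t => (congrArg pc.χ (Subtype.ext (commutatorElement_one_left t) :
    (⟨⁅(1 : pc.L.R), t⁆, pc.L.class_two 1 t⟩ : Subgroup.center pc.L.R) = 1)).trans (map_one _)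
  mul_mem' := fun {s s'} hs hs' t => by
    have e : (⟨⁅s * s', t⁆, pc.L.class_two (s * s') t⟩ : Subgroup.center pc.L.R) =
        ⟨⁅s', t⁆, pc.L.class_two s' t⟩ * ⟨⁅s, t⁆, pc.L.class_two s t⟩ := by
      refine Subtype.ext ?_
      show ⁅s * s', t⁆ = ⁅s', t⁆ * ⁅s, t⁆
      calc ⁅s * s', t⁆ = s * ⁅s', t⁆ * s⁻¹ * ⁅s, t⁆ := by simp only [commutatorElement_def]; group
        _ = _ := by rw [Subgroup.mem_center_iff.1 (pc.L.class_two s' t) s, mul_inv_cancel_right]
    rw [e, map_mul, hs t, hs' t, one_mul]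
  inv_mem' := fun {s} hs t => by
    have e : (⟨⁅s⁻¹, t⁆, pc.L.class_two s⁻¹ t⟩ : Subgroup.center pc.L.R) =
        ⟨⁅s, t⁆, pc.L.class_two s t⟩⁻¹ := by
      refine Subtype.ext ?_
      show ⁅s⁻¹, t⁆ = ⁅s, t⁆⁻¹
      have h2 := Subgroup.mem_center_iff.1 (inv_mem (pc.L.class_two s t)) s⁻¹
      calc ⁅s⁻¹, t⁆ = s⁻¹ * ⁅s, t⁆⁻¹ * s := by simp only [commutatorElement_def]; group
        _ = _ := by rw [h2, inv_mul_cancel_right]
    rw [e, map_inv, hs t, inv_one]

omit [Finite H] in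
theorem WeightPiece.mem_rad {pc : WeightPiece ρ} {s : pc.L.R} : s ∈ pc.rad ↔ Rad pc.χ s :=
  ⟨fun h t z hz => by rw [← h t]; exact congrArg pc.χ (Subtype.ext hz), fun h t => h t _ rfl⟩

omit [Finite H] in
theorem WeightPiece.center_le_rad (pc : WeightPiece ρ) : Subgroup.center pc.L.R ≤ pc.rad := fun a ha t =>
  (congrArg pc.χ (Subtype.ext (commutatorElement_eq_one_iff_mul_comm.2 (Subgroup.mem_center_iff.1 ha t).symm) :
    (⟨⁅a, t⁆, pc.L.class_two a t⟩ : Subgroup.center pc.L.R) = 1)).trans (map_one _)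

omit [Finite H] in
theorem WeightPiece.act_mem_rad (pc : WeightPiece ρ) {m : H} (hm : m ∈ fixCenters H) {s : pc.L.R}
    (hs : s ∈ pc.rad) : pc.L.act m s ∈ pc.rad := by
  intro t
  obtain ⟨t, rfl⟩ := (pc.L.act m).surjective t
  rw [← hs t]
  refine congrArg pc.χ (Subtype.ext ?_)
  show ⁅pc.L.act m s, pc.L.act m t⁆ = ⁅s, t⁆
  rw [← map_commutatorElement (pc.L.act m) s t, hm pc.L _ (pc.L.class_two s t)]

/-- The elements fixing the centres and trivial on the piece. -/
def WeightPiece.ker (pc : WeightPiece ρ) : Subgroup H where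
  carrier := {m | m ∈ fixCenters H ∧ ∀ s : pc.L.R, pc.L.act m s * s⁻¹ ∈ pc.rad}
  one_mem' := ⟨one_mem _, fun s => by rw [map_one, MulAut.one_apply, mul_inv_cancel]; exact one_mem _⟩
  mul_mem' := fun {m m'} hm hm' => ⟨mul_mem hm.1 hm'.1, fun s => by
    have e : pc.L.act (m * m') s * s⁻¹ =
        pc.L.act m (pc.L.act m' s * s⁻¹) * (pc.L.act m s * s⁻¹) := by
      rw [map_mul (pc.L.act), MulAut.mul_apply, map_mul (pc.L.act m), map_inv (pc.L.act m)]
      group
    rw [e]
    exact mul_mem (pc.act_mem_rad hm.1 (hm'.2 s)) (hm.2 s)⟩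
  inv_mem' := fun {m} hm => ⟨inv_mem hm.1, fun s => by
    have e : pc.L.act m⁻¹ s * s⁻¹ = pc.L.act m⁻¹ (pc.L.act m s * s⁻¹)⁻¹ := by
      rw [mul_inv_rev, inv_inv, map_mul (pc.L.act m⁻¹), map_inv (pc.L.act m⁻¹), map_inv pc.L.act,
        MulAut.inv_apply_self]
    rw [e]
    exact pc.act_mem_rad (inv_mem hm.1) (inv_mem (hm.2 s))⟩

/-- The conjugate piece. -/
noncomputable def WeightPiece.twist (pc : WeightPiece ρ) (h : H) : WeightPiece ρ where
  L := pc.L
  χ := pc.χ.comp (centerAut (pc.L.act h)).toMonoidHom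
  weight := by
    obtain ⟨u, hu, hw⟩ := pc.weight
    refine ⟨ρ h⁻¹ u, fun h0 => hu ?_, fun a => ?_⟩
    · have := congrArg (ρ h) h0
      rwa [← Module.End.mul_apply, ← map_mul, mul_inv_cancel, map_one, Module.End.one_apply, map_zero] at this
    · have h1 := hw (centerAut (pc.L.act h) a)
      rw [show (((centerAut (pc.L.act h) a : Subgroup.center pc.L.R) : pc.L.R) : H) = h * (a : pc.L.R) * h⁻¹ from
        pc.L.act_coe h a] at h1
      rw [← Module.End.mul_apply, ← map_mul, show ((a : pc.L.R) : H) * h⁻¹ = h⁻¹ * (h * (a : pc.L.R) * h⁻¹) by group,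
        map_mul, Module.End.mul_apply, h1, map_smul]
      rfl

omit [Finite H] in
theorem WeightPiece.conj_mem_ker (pc : WeightPiece ρ) {h m : H} (hm : m ∈ (pc.twist h).ker) :
    h * m * h⁻¹ ∈ pc.ker := by
  refine ⟨conj_mem_fixCenters hm.1, fun s => ?_⟩
  obtain ⟨s, rfl⟩ := (pc.L.act h).surjective s
  have h1 : pc.L.act (h * m * h⁻¹) (pc.L.act h s) * (pc.L.act h s)⁻¹ = pc.L.act h (pc.L.act m s * s⁻¹) := by
    have h2 : pc.L.act (h * m * h⁻¹) (pc.L.act h s) = pc.L.act (h * m * h⁻¹ * h) s := by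
      rw [map_mul (pc.L.act) (h * m * h⁻¹) h]; rfl
    rw [h2, inv_mul_cancel_right, map_mul (pc.L.act),
      MulAut.mul_apply, map_mul (pc.L.act h), map_inv (pc.L.act h)]
  rw [h1]
  intro t
  obtain ⟨t, rfl⟩ := (pc.L.act h).surjective t
  refine Eq.trans ?_ (hm.2 s t)
  exact congrArg pc.χ (Subtype.ext (map_commutatorElement (pc.L.act h) (pc.L.act m s * s⁻¹) t).symm)

variable [FiniteDimensional k V] [CharP k 2]

/-- The commutator with a pinched element lies below. -/
theorem comm_mem (hinj : Function.Injective ρ) {S : Subgroup H} (hS : IsPGroup 2 S) {z : H}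
    (hz : Pinched 2 ρ S z) (pc : WeightPiece ρ) {X : Subgroup H} (hXS : X ≤ S) (hXf : X ≤ fixCenters H)
    (hXn : S ≤ Subgroup.normalizer (X : Set H)) {m : H} (hm : m ∈ X) :
    z * m * z⁻¹ * m⁻¹ ∈ frattiniOf X ⊔ (X ⊓ pc.ker) := by
  classical
  haveI := Fact.mk Nat.prime_two
  haveI := Fact.mk pc.L.prime
  set R := pc.L.R with hR
  set q := pc.L.q with hq
  haveI := pc.L.normal
  have hRk : (Nat.card R : k) ≠ 0 := by
    obtain ⟨i, hi⟩ := IsPGroup.iff_card.1 pc.L.isPGroup
    rw [Ne, CharP.cast_eq_zero_iff k 2, hi]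
    exact fun h => pc.L.ne_two ((Nat.prime_dvd_prime_iff_eq Nat.prime_two pc.L.prime).1
      (Nat.prime_two.dvd_of_dvd_pow h)).symm
  let c : S →* MulAut R := pc.L.act.comp S.subtype
  have hcv : ∀ (y : S) (s : R), ((c y s : R) : H) = y * s * (y : H)⁻¹ := fun y s => pc.L.act_coe y s
  obtain ⟨u, hu, hχu⟩ := pc.weight
  let χ := pc.χ
  let D : Subgroup R := pc.rad
  haveI : D.Normal := ⟨fun a ha b => by
    have h := mul_mem (pc.center_le_rad (pc.L.class_two b a)) ha
    rwa [commutatorElement_def, inv_mul_cancel_right] at h⟩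
  letI : CommGroup (R ⧸ D) := { (inferInstance : Group (R ⧸ D)) with
    mul_comm := fun a b => by
      induction a using QuotientGroup.induction_on with
      | _ a =>
        induction b using QuotientGroup.induction_on with
        | _ b =>
          rw [← QuotientGroup.mk_mul, ← QuotientGroup.mk_mul, QuotientGroup.eq]
          have h := pc.center_le_rad (pc.L.class_two b⁻¹ a⁻¹)
          rw [commutatorElement_def] at h
          simpa [mul_assoc] using h }
  let St : Subgroup S :=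
    { carrier := {y | ∀ a, χ (centerAut (c y) a) = χ a}
      one_mem' := fun a => congrArg χ (Subtype.ext (by show c 1 a = a; rw [map_one]; rfl))
      mul_mem' := fun {y y'} hy hy' a => by
        rw [show centerAut (c (y * y')) a = centerAut (c y) (centerAut (c y') a) from
          Subtype.ext (by show c (y * y') a = c y (c y' a); rw [map_mul]; rfl), hy, hy']
      inv_mem' := fun {y} hy a => by
        rw [← hy (centerAut (c y⁻¹) a)]
        exact congrArg χ (Subtype.ext (by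
          show c y (c y⁻¹ a) = a
          rw [← MulAut.mul_apply, ← map_mul, mul_inv_cancel, map_one]; rfl)) }
  have hDinv : ∀ y : St, D.map (c y).toMonoidHom = D := by
    intro y
    refine Subgroup.eq_of_le_of_card_ge ?_
      (Subgroup.card_map_of_injective (f := (c y).toMonoidHom) (c y).injective).ge
    rintro _ ⟨s, hs, rfl⟩ t
    obtain ⟨t', rfl⟩ := (c y).surjective t
    refine Eq.trans ?_ (((y.2 : ∀ a, χ (centerAut (c y) a) = χ a) ⟨⁅s, t'⁆, pc.L.class_two s t'⟩).trans (hs t'))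
    exact congrArg χ (Subtype.ext (map_commutatorElement (c y) s t').symm)
  let cM : St →* MulAut (R ⧸ D) := MonoidHom.mk' (fun y => QuotientGroup.congr D D (c y) (hDinv y))
    fun y y' => MulEquiv.ext fun x => by
      induction x using QuotientGroup.induction_on with
      | _ s =>
        show ((c (y * y' : St) s : R) : R ⧸ D) = ((c y (c y' s) : R) : R ⧸ D)
        rw [Subgroup.coe_mul, map_mul]; rfl
  have hzS : (⟨z, hz.mem⟩ : S) ∈ St := fun a =>
    congrArg χ (Subtype.ext (hz.fix_center hinj R hRk c hcv a))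
  have hXSt : ∀ {v : H} (hv : v ∈ X), (⟨v, hXS hv⟩ : S) ∈ St := fun hv a =>
    congrArg χ (Subtype.ext (hXf hv pc.L a a.2))
  -- kernel
  have hcomm_mem : ∀ (a : S), ∀ v ∈ X, (a : H) * v * (a : H)⁻¹ * v⁻¹ ∈ X := fun a v hv =>
    mul_mem ((Subgroup.mem_normalizer_iff.1 (hXn a.2) v).1 hv) (inv_mem hv)
  set mS : St := ⟨⟨m, hXS hm⟩, hXSt hm⟩ with hmS
  set zS : St := ⟨⟨z, hz.mem⟩, hzS⟩ with hzSdef
  have hker : ∀ {v : H} (hv : v ∈ X), cM ⟨⟨v, hXS hv⟩, hXSt hv⟩ = 1 → v ∈ X ⊓ pc.ker := by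
    intro v hv h
    refine ⟨hv, hXf hv, fun s => ?_⟩
    have h1 : ((c ⟨v, hXS hv⟩ s : R) : R ⧸ D) = (s : R ⧸ D) := DFunLike.congr_fun h (s : R ⧸ D)
    rwa [eq_comm, QuotientGroup.eq, Subgroup.Normal.mem_comm_iff inferInstance] at h1
  have hzm : z * m * z⁻¹ * m⁻¹ ∈ X := hcomm_mem ⟨z, hz.mem⟩ m hm
  have hzm' : (⟨⟨_, hXS hzm⟩, hXSt hzm⟩ : St) = zS * mS * zS⁻¹ * mS⁻¹ := rfl
  rcases exists_root (q := q) rfl ρ hinj S R pc.L.isPGroup hRk pc.L.class_two c hcv χ hu hχu St (fun _ => Iff.rfl)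
      (QuotientGroup.mk' D) (QuotientGroup.mk'_surjective D)
      (fun s => (QuotientGroup.eq_one_iff s).trans WeightPiece.mem_rad) cM (fun _ _ => rfl) hz hzS with
    h | ⟨y, ⟨i, hyz⟩, hidx, hfix⟩
  · refine Subgroup.mem_sup_right (hker hzm ?_)
    rw [hzm', map_mul, map_mul, map_mul, map_inv, map_inv, show cM zS = 1 from h, one_mul, inv_one, mul_one,
      mul_inv_cancel]
  change y ^ 2 ^ (i + 1) = zS at hyz
  -- the pairing
  let β₀ : R →* R ⧸ D →* kˣ := MonoidHom.mk' (fun s => QuotientGroup.lift D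
      (MonoidHom.mk' (fun t => χ ⟨⁅s, t⁆, pc.L.class_two s t⟩) fun t t' => by
        rw [← map_mul]
        refine congrArg χ (Subtype.ext ?_)
        show ⁅s, t * t'⁆ = ⁅s, t⁆ * ⁅s, t'⁆
        calc ⁅s, t * t'⁆ = ⁅s, t⁆ * (t * ⁅s, t'⁆ * t⁻¹) := by simp only [commutatorElement_def]; group
          _ = _ := by rw [Subgroup.mem_center_iff.1 (pc.L.class_two s t') t, mul_inv_cancel_right])
      fun t ht => by
        rw [MonoidHom.mem_ker]
        show χ _ = 1
        rw [← inv_eq_one, ← map_inv]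
        exact (congrArg χ (Subtype.ext (commutatorElement_inv s t))).trans (ht s))
    fun s s' => by
      ext t
      · refine congrArg Units.val ?_
        show χ _ = χ _ * χ _
        rw [mul_comm, ← map_mul]
        refine congrArg χ (Subtype.ext ?_)
        show ⁅s * s', t⁆ = ⁅s', t⁆ * ⁅s, t⁆
        calc ⁅s * s', t⁆ = s * ⁅s', t⁆ * s⁻¹ * ⁅s, t⁆ := by simp only [commutatorElement_def]; group
          _ = _ := by rw [Subgroup.mem_center_iff.1 (pc.L.class_two s' t) s, mul_inv_cancel_right]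
  let β : R ⧸ D →* R ⧸ D →* kˣ := QuotientGroup.lift D β₀ fun s hs => by
    rw [MonoidHom.mem_ker]
    ext t
    exact congrArg Units.val (hs t)
  have hβ : IsAlt β := by
    refine ⟨fun x => ?_, fun x hx => ?_⟩
    · induction x using QuotientGroup.induction_on with
      | _ s => exact (congrArg χ (Subtype.ext (commutatorElement_self s) :
          (⟨⁅s, s⁆, pc.L.class_two s s⟩ : Subgroup.center R) = 1)).trans (map_one χ)
    · induction x using QuotientGroup.induction_on with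
      | _ s => exact (QuotientGroup.eq_one_iff s).2 fun t => hx (t : R ⧸ D)
  have hiso : ∀ y : St, Isom β (cM y) := fun y x x' => by
    induction x using QuotientGroup.induction_on with
    | _ s =>
      induction x' using QuotientGroup.induction_on with
      | _ t =>
        refine Eq.trans ?_ ((y.2 : ∀ a, χ (centerAut (c y) a) = χ a) ⟨⁅s, t⁆, pc.L.class_two s t⟩)
        exact congrArg χ (Subtype.ext (map_commutatorElement (c y) s t).symm)
  have hM : IsPGroup q (R ⧸ D) := pc.L.isPGroup.to_quotient D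
  have hP : IsPGroup 2 cM.range := (hS.to_subgroup St).of_surjective cM.rangeRestrict cM.rangeRestrict_surjective
  set y' := mS * y * mS⁻¹ with hy'
  have hy'z : y' ^ 2 ^ (i + 1) = mS * zS * mS⁻¹ := by rw [hy', conj_pow, hyz]
  have hz2 : zS ^ 2 = 1 := by
    obtain ⟨x, -, l, -, h2, -⟩ := id hz
    exact Subtype.ext (Subtype.ext h2)
  have hu2 : cM zS ^ 2 = 1 := by rw [← map_pow, hz2, map_one]
  have hu'2 : cM (mS * zS * mS⁻¹) ^ 2 = 1 := by
    rw [← map_pow, conj_pow, hz2, mul_one, mul_inv_cancel, map_one]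
  have hfix' : ∀ x, x ∈ fixSub (cM (mS * zS * mS⁻¹)) ↔ (cM mS)⁻¹ x ∈ fixSub (cM zS) := by
    intro x
    rw [mem_fixSub, mem_fixSub, map_mul, map_mul, map_inv, MulAut.mul_apply, MulAut.mul_apply]
    constructor
    · intro h
      conv_rhs => rw [← h, MulAut.inv_apply_self]
    · intro h
      rw [h, MulAut.apply_inv_self]
  have hidx' : (fixSub (cM (mS * zS * mS⁻¹))).index ≤ q ^ 2 := by
    have : fixSub (cM (mS * zS * mS⁻¹)) = (fixSub (cM zS)).map (cM mS).toMonoidHom := by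
      ext x
      rw [hfix' x, Subgroup.mem_map_equiv]
      rfl
    have hcard : Nat.card (fixSub (cM (mS * zS * mS⁻¹))) = Nat.card (fixSub (cM zS)) := by
      rw [this]
      exact Subgroup.card_map_of_injective (cM mS).injective
    have h1 := (fixSub (cM (mS * zS * mS⁻¹))).card_mul_index.trans (fixSub (cM zS)).card_mul_index.symm
    rw [hcard] at h1
    exact (Nat.eq_of_mul_eq_mul_left Nat.card_pos h1).trans_le hidx
  have hcm : cM (mS * zS * mS⁻¹) * cM zS = cM zS * cM (mS * zS * mS⁻¹) :=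
    commute_of_sq _ (R ⧸ D) rfl pc.L.ne_two hM β hβ cM.range hP (by rintro _ ⟨w, rfl⟩; exact hiso w)
      _ ⟨_, rfl⟩ _ ⟨_, rfl⟩ hu'2 hu2
      ⟨cM (y' ^ 2 ^ i), ⟨_, rfl⟩, by rw [← map_pow, ← pow_mul, ← pow_succ, hy'z]⟩
      ⟨cM (y ^ 2 ^ i), ⟨_, rfl⟩, by rw [← map_pow, ← pow_mul, ← pow_succ, hyz]⟩ hidx' hidx
  have hv : cM ⟨⟨_, hXS hzm⟩, hXSt hzm⟩ = cM zS * (cM (mS * zS * mS⁻¹))⁻¹ := by
    rw [hzm', ← map_inv, ← map_mul]
    congr 1
    group
  rcases eq_or_ne (cM zS) (cM (mS * zS * mS⁻¹)) with he | he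
  · refine Subgroup.mem_sup_right (hker hzm ?_)
    rw [hv, ← he, mul_inv_cancel]
  have hcz : cM y * cM zS = cM zS * cM y := by
    rw [← map_mul, ← map_mul, ← hyz, ← pow_succ', ← pow_succ]
  have hcz' : cM y' * cM (mS * zS * mS⁻¹) = cM (mS * zS * mS⁻¹) * cM y' := by
    rw [← map_mul, ← map_mul, ← hy'z, ← pow_succ', ← pow_succ]
  have hroot : cM y * cM y' = cM y' * cM y :=
    commute_root pc.L.ne_two hM hβ hu2 hu'2 (hiso _) (hiso _) hcm he hidx hidx' hcz hcz' hfix fun x hx => by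
      have h := hfix _ ((hfix' x).1 hx)
      rw [hy', map_mul, map_mul, map_inv, MulAut.mul_apply, MulAut.mul_apply, h, MulAut.apply_inv_self]
  have hym : ((y : S) : H) * m * ((y : S) : H)⁻¹ * m⁻¹ ∈ X := hcomm_mem (y : S) m hm
  set e := (((y : S) : H) * m * ((y : S) : H)⁻¹ * m⁻¹) ^ 2 ^ i with he'
  have heX : e ∈ X := pow_mem hym _
  have he2 : e ^ 2 ∈ frattiniOf X := sq_mem_frattiniOf (hS.to_le hXS) heX
  have hev : cM (⟨⟨e, hXS heX⟩, hXSt heX⟩ ^ 2) = cM ⟨⟨_, hXS hzm⟩, hXSt hzm⟩ := by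
    rw [show (⟨⟨e, hXS heX⟩, hXSt heX⟩ : St) = (y * mS * y⁻¹ * mS⁻¹) ^ 2 ^ i from rfl, ← pow_mul, ← pow_succ,
      map_pow, show y * mS * y⁻¹ * mS⁻¹ = y * y'⁻¹ by rw [hy']; group, map_mul, map_inv,
      ((show Commute (cM y) (cM y') from hroot).inv_right).mul_pow, inv_pow, ← map_pow, ← map_pow, hyz, hy'z, hv]
  have hew : (e ^ 2)⁻¹ * (z * m * z⁻¹ * m⁻¹) ∈ X ⊓ pc.ker := by
    have hmem : (e ^ 2)⁻¹ * (z * m * z⁻¹ * m⁻¹) ∈ X := mul_mem (inv_mem (pow_mem heX 2)) hzm
    refine hker hmem ?_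
    rw [show (⟨⟨_, hXS hmem⟩, hXSt hmem⟩ : St) = ((⟨⟨e, hXS heX⟩, hXSt heX⟩ : St) ^ 2)⁻¹ * ⟨⟨_, hXS hzm⟩, hXSt hzm⟩
      from rfl, map_mul, map_inv, hev, inv_mul_cancel]
  rw [← mul_inv_cancel_left (e ^ 2) (z * m * z⁻¹ * m⁻¹)]
  exact Subgroup.mul_mem_sup he2 hew

/-- The next term of the series. -/
def next (ρ : H →* Module.End k V) (X : Subgroup H) : Subgroup H :=
  X ⊓ ⨅ pc : WeightPiece ρ, frattiniOf X ⊔ (X ⊓ pc.ker)

omit [FiniteDimensional k V] [CharP k 2] [Finite H] in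
theorem conj_mem_next {N X : Subgroup H} (hN : N ≤ Subgroup.normalizer (X : Set H)) :
    ∀ h ∈ N, ∀ y ∈ next ρ X, h * y * h⁻¹ ∈ next ρ X := by
  intro h hh y hy
  have hhX := Subgroup.mem_normalizer_iff.1 (hN hh)
  refine Subgroup.mem_inf.2 ⟨(hhX y).1 (Subgroup.mem_inf.1 hy).1, Subgroup.mem_iInf.2 fun pc => ?_⟩
  have h1 := Subgroup.mem_iInf.1 (Subgroup.mem_inf.1 hy).2 (pc.twist h)
  refine ((sup_le ?_ ?_) : frattiniOf X ⊔ (X ⊓ (pc.twist h).ker) ≤
    (frattiniOf X ⊔ (X ⊓ pc.ker)).comap (MulAut.conj h).toMonoidHom) h1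
  · exact fun a ha => Subgroup.mem_sup_left (conj_mem_frattiniOf (hN hh) ha)
  · exact fun a ha => Subgroup.mem_sup_right ⟨(hhX a).1 ha.1, pc.conj_mem_ker ha.2⟩

omit [Finite H] [FiniteDimensional k V] [CharP k 2] in
theorem le_normalizer_next {N X : Subgroup H} (hN : N ≤ Subgroup.normalizer (X : Set H)) :
    N ≤ Subgroup.normalizer (next ρ X : Set H) := fun h hh => Subgroup.mem_normalizer_iff.2 fun y =>
  ⟨conj_mem_next hN h hh y, fun hy => by
    have := conj_mem_next hN h⁻¹ (inv_mem hh) _ hy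
    simpa [mul_assoc] using this⟩

omit [Finite H] in
/-- An element of order prime to `q` fixing the centre of a `q`-group and all of it modulo the centre. -/
theorem act_eq_self_of_mod_center {R : Type*} [Group R] {q : ℕ} (hR : IsPGroup q R) {σ : MulAut R} {N : ℕ}
    (hσ : σ ^ N = 1) (hN : N.Coprime q) (hfix : ∀ a ∈ Subgroup.center R, σ a = a) {s : R}
    (hs : σ s * s⁻¹ ∈ Subgroup.center R) : σ s = s := by
  set d := σ s * s⁻¹ with hd
  have hi : ∀ l : ℕ, (σ ^ l) s = d ^ l * s := fun l => by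
    induction l with
    | zero => simp
    | succ l ih =>
      rw [pow_succ', MulAut.mul_apply, ih, map_mul, map_pow, hfix d hs, pow_succ, mul_assoc, hd,
        inv_mul_cancel_right]
  have h1 := hi N
  rw [hσ, MulAut.one_apply, right_eq_mul] at h1
  obtain ⟨l, hl⟩ := hR d
  have h2 := Nat.eq_one_of_dvd_coprimes (hN.pow_right l) (orderOf_dvd_of_pow_eq_one h1)
    (orderOf_dvd_of_pow_eq_one hl)
  rw [orderOf_eq_one_iff, hd, mul_inv_eq_one] at h2
  exact h2

omit [CharP k 2] in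
/-- The next term is smaller. -/
theorem next_ne (hinj : Function.Injective ρ) (hcharp : CharP k 2) {X : Subgroup H} (hX : IsPGroup 2 X)
    (hXf : X ≤ fixCenters H)
    (htriv : ∀ m : H, (∃ l : ℕ, m ^ 2 ^ l = 1) → (∀ L : Layer H, ∀ s : L.R, L.act m s = s) → m = 1)
    (hne : X ≠ ⊥) : next ρ X ≠ X := by
  intro h
  haveI := Fact.mk Nat.prime_two
  have hle : ∀ pc : WeightPiece ρ, X ≤ pc.ker := fun pc => by
    have h1 : X ≤ frattiniOf X ⊔ (X ⊓ pc.ker) :=
      (h.ge.trans inf_le_right).trans (iInf_le (fun pc : WeightPiece ρ => frattiniOf X ⊔ (X ⊓ pc.ker)) pc)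
    exact (eq_of_frattiniOf_sup inf_le_left h1).ge.trans inf_le_right
  refine hne ((Subgroup.eq_bot_iff_forall _).2 fun m hm => ?_)
  obtain ⟨l, hl⟩ := hX ⟨m, hm⟩
  have hl' : m ^ 2 ^ l = 1 := congrArg Subtype.val hl
  refine htriv m ⟨l, hl'⟩ fun L s => ?_
  haveI := Fact.mk L.prime
  have hRk : (Nat.card L.R : k) ≠ 0 := by
    obtain ⟨i, hi⟩ := IsPGroup.iff_card.1 L.isPGroup
    rw [Ne, CharP.cast_eq_zero_iff k 2, hi]
    exact fun h => L.ne_two ((Nat.prime_dvd_prime_iff_eq Nat.prime_two L.prime).1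
      (Nat.prime_two.dvd_of_dvd_pow h)).symm
  refine act_eq_self_of_mod_center L.isPGroup (σ := L.act m) (N := 2 ^ l) (by rw [← map_pow, hl', map_one])
    (((Nat.coprime_primes Nat.prime_two L.prime).2 L.ne_two.symm).pow_left l) (hXf hm L)
    (Subgroup.mem_center_iff.2 fun t => ?_)
  set d := L.act m s * s⁻¹ with hd
  refine (commutatorElement_eq_one_iff_mul_comm.1 ?_).symm
  refine Subtype.ext (hinj ?_)
  rw [OneMemClass.coe_one, map_one, ← sub_eq_zero]
  refine CfsgLib.FpfAut.eq_zero_of_eigen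
    (CfsgLib.FpfAut.natCast_ne_zero_of_dvd (Subgroup.card_subgroup_dvd_card (Subgroup.center L.R)) hRk)
    ((ρ.comp L.R.subtype).comp (Subgroup.center L.R).subtype) _ fun χ u hu => ?_
  rcases eq_or_ne u 0 with rfl | hu0
  · exact map_zero _
  · let pc : WeightPiece ρ := ⟨L, χ, u, hu0, hu⟩
    rw [LinearMap.sub_apply, Module.End.one_apply, sub_eq_zero,
      show ρ ((⁅d, t⁆ : L.R) : H) u = (χ ⟨⁅d, t⁆, L.class_two d t⟩ : k) • u from hu ⟨_, L.class_two d t⟩,
      show χ ⟨⁅d, t⁆, L.class_two d t⟩ = 1 from (hle pc hm).2 s t, Units.val_one, one_smul]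

omit [FiniteDimensional k V] [CharP k 2] [IsAlgClosed k] in
/-- A 2-element centralising all layers is trivial. -/
theorem eq_one_of_centralizes_layers [Group.IsSolvable H] (hO : pCore 2 H = ⊥) {m : H}
    (hm : ∃ l : ℕ, m ^ 2 ^ l = 1) (h : ∀ L : Layer H, ∀ s : L.R, L.act m s = s) : m = 1 := by
  haveI := Fact.mk Nat.prime_two
  obtain ⟨l, hl⟩ := hm
  have hcent : fittingSubgroup H ≤ Subgroup.centralizer {m} := by
    rw [CfsgLib.Constrained.fitting_eq_iSup_pCore]
    refine iSup₂_le fun q hq => ?_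
    haveI := Fact.mk hq
    rcases eq_or_ne q 2 with rfl | hq2
    · rw [hO]; exact bot_le
    set Q := pCore q H with hQ
    have hQp : IsPGroup q Q := CfsgLib.Constrained.isPGroup_pCore
    obtain ⟨C, hC⟩ := CfsgLib.PGroup.exists_criticalSubgroup hQp
    haveI := hC.characteristic
    let e : C ≃* C.map Q.subtype := C.equivMapOfInjective Q.subtype Q.subtype_injective
    have hσ : (MulAut.conjNormal m : MulAut Q) = 1 := by
      refine hC.aut_eq_one hQp (Nat.Coprime.coprime_dvd_left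
        (orderOf_dvd_of_pow_eq_one (by rw [← map_pow, hl, map_one]))
        (((Nat.coprime_primes Nat.prime_two hq).2 hq2.symm).pow_left l)) fun c hc => ?_
      let L : Layer H :=
        { q := q
          prime := hq
          ne_two := hq2
          R := C.map Q.subtype
          normal := inferInstance
          isPGroup := (hQp.to_subgroup C).map _
          class_two := fun s t => by
            obtain ⟨s, rfl⟩ := e.surjective s
            obtain ⟨t, rfl⟩ := e.surjective t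
            rw [← map_commutatorElement]
            refine Subgroup.mem_center_iff.2 fun r => ?_
            obtain ⟨r, rfl⟩ := e.surjective r
            rw [← map_mul, ← map_mul, Subgroup.mem_center_iff.1 (hC.class_two s t) r] }
      have h1 := congrArg Subtype.val (h L ⟨(c : H), c, hc, rfl⟩)
      rw [L.act_coe] at h1
      exact Subtype.ext (by rw [MulAut.conjNormal_apply]; exact h1)
    intro x hx
    rw [Subgroup.mem_centralizer_singleton_iff]
    have h1 := congrArg Subtype.val (DFunLike.congr_fun hσ ⟨x, hx⟩)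
    rw [MulAut.conjNormal_apply, MulAut.one_apply] at h1
    exact (mul_inv_eq_iff_eq_mul.1 h1).symm
  have hmF : m ∈ fittingSubgroup H := CfsgLib.Constrained.centralizer_fitting_le (Subgroup.mem_centralizer_iff.2
    fun f hf => Subgroup.mem_centralizer_singleton_iff.1 (hcent hf))
  obtain ⟨T, hT⟩ : ∃ T : Sylow 2 ↥(fittingSubgroup H), (⟨m, hmF⟩ : fittingSubgroup H) ∈ (T : Subgroup _) := by
    obtain ⟨j, -, hj⟩ := (Nat.dvd_prime_pow Nat.prime_two).1
      (orderOf_dvd_of_pow_eq_one (show (⟨m, hmF⟩ : fittingSubgroup H) ^ 2 ^ l = 1 from Subtype.ext hl))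
    obtain ⟨T, hT⟩ := (IsPGroup.of_card (p := 2) (n := j)
      (show Nat.card (Subgroup.zpowers (⟨m, hmF⟩ : fittingSubgroup H)) = 2 ^ j by
        rw [Nat.card_zpowers, hj])).exists_le_sylow
    exact ⟨T, hT (Subgroup.mem_zpowers _)⟩
  have h2 := CfsgLib.Constrained.map_sylow_le_pCore (p := 2) inferInstance inferInstance T ⟨_, hT, rfl⟩
  rwa [hO, Subgroup.mem_bot] at h2

end CfsgLib.PLengthGross
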