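import Mathlib
import Cfsg.Agent.PLengthGross.Series

/-!
Gross: the 2-length of a solvable group is at most `2e - 1` for Sylow 2-subgroups of exponent `2 ^ e`.
-/

set_option autoImplicit false

open scoped commutatorElement

namespace CfsgLib.PLengthGross

open Cfsg CfsgLib.PLengthExp

universe u v w

variable {k : Type w} [Field k] [IsAlgClosed k] {V : Type v} [AddCommGroup V] [Module k V]
  {H : Type u} [Group H] [Finite H]

/-- The 2-part of `O_{2',2}`. -/
theorem not_dvd_relIndex_inf (S : Sylow 2 H) (M : Subgroup H) [M.Normal] :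
    ¬ 2 ∣ (M ⊓ (S : Subgroup H)).relIndex M := by
  haveI := Fact.mk Nat.prime_two
  set P := (S : Subgroup H) with hP
  have h2 : M.relIndex P = M.relIndex (M ⊔ P) := (Subgroup.relIndex_sup_left (K := M) (H := P)).symm
  have h3 : (M ⊓ P).relIndex M * M.relIndex (M ⊔ P) = (M ⊓ P).relIndex (M ⊔ P) :=
    Subgroup.relIndex_mul_relIndex _ _ _ inf_le_left le_sup_left
  have h4 : (M ⊓ P).relIndex P * P.relIndex (M ⊔ P) = (M ⊓ P).relIndex (M ⊔ P) :=
    Subgroup.relIndex_mul_relIndex _ _ _ inf_le_right le_sup_right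
  rw [Subgroup.inf_relIndex_right, h2] at h4
  rw [← h4, mul_comm (M.relIndex (M ⊔ P))] at h3
  intro hd
  rw [Nat.eq_of_mul_eq_mul_right (Nat.pos_of_ne_zero Subgroup.index_ne_zero_of_finite) h3] at hd
  exact S.not_dvd_index (hd.trans (Subgroup.relIndex_dvd_index_of_le le_sup_right |>.trans dvd_rfl))

/-- An element of odd order stabilising a series of 2-groups is trivial on it. -/
theorem commute_of_stabilizes {W : ℕ → Subgroup H} (hW : ∀ j, IsPGroup 2 (W j)) {N : ℕ} (hN : W N = ⊥)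
    {g : H} (hg : ¬ 2 ∣ orderOf g) (hst : ∀ j, ∀ m ∈ W j, g * m * g⁻¹ * m⁻¹ ∈ W (j + 1)) :
    ∀ m ∈ W 0, g * m = m * g := by
  suffices key : ∀ d j, j + d = N → ∀ m ∈ W j, g * m = m * g from key N 0 (zero_add N)
  intro d
  induction d with
  | zero =>
    intro j hj m hm
    rw [add_zero] at hj
    rw [hj, hN, Subgroup.mem_bot] at hm
    rw [hm, mul_one, one_mul]
  | succ d ih =>
    intro j hj m hm
    set c := g * m * g⁻¹ * m⁻¹ with hc
    have hcm : c ∈ W (j + 1) := hst j m hm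
    have hcc : Commute g c := ih (j + 1) (by omega) c hcm
    have h1 : ∀ l : ℕ, g ^ l * m * (g ^ l)⁻¹ = c ^ l * m := fun l => by
      induction l with
      | zero => simp
      | succ l ihl =>
        calc g ^ (l + 1) * m * (g ^ (l + 1))⁻¹ = g * (g ^ l * m * (g ^ l)⁻¹) * g⁻¹ := by rw [pow_succ']; group
          _ = g * (c ^ l * m) * g⁻¹ := by rw [ihl]
          _ = c ^ l * (g * m * g⁻¹) := by rw [← mul_assoc, (hcc.pow_right l).eq]; group
          _ = c ^ (l + 1) * m := by rw [pow_succ, hc]; group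
    have h2 := h1 (orderOf g)
    rw [pow_orderOf_eq_one, inv_one, mul_one, one_mul, right_eq_mul] at h2
    obtain ⟨l, hl⟩ := hW (j + 1) ⟨c, hcm⟩
    have h3 : c = 1 := orderOf_eq_one_iff.1 (Nat.eq_one_of_dvd_coprimes
      ((((Nat.Prime.coprime_iff_not_dvd Nat.prime_two).2 hg).symm).pow_right l)
      (orderOf_dvd_of_pow_eq_one h2) (orderOf_dvd_of_pow_eq_one (congrArg Subtype.val hl)))
    rw [hc, mul_inv_eq_one] at h3
    exact mul_inv_eq_iff_eq_mul.1 h3

theorem pow_mem_of_pinched [FiniteDimensional k V] [CharP k 2] [Group.IsSolvable H] (hO : pCore 2 H = ⊥)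
    (ρ : H →* Module.End k V) (hinj : Function.Injective ρ) (S : Sylow 2 H) {z : H}
    (hz : Pinched 2 ρ (S : Subgroup H) z) : z ∈ pPrimePCore 2 H := by
  classical
  haveI := Fact.mk Nat.prime_two
  set M := pPrimePCore 2 H with hM
  set Q := pPrimeCore 2 H with hQ
  set MS := M ⊓ (S : Subgroup H) with hMS
  have hMS2 : IsPGroup 2 MS := S.isPGroup'.to_le inf_le_right
  set N := Subgroup.normalizer (MS : Set H) with hN
  have hSN : (S : Subgroup H) ≤ N := by
    intro a ha
    refine Subgroup.mem_normalizer_iff.2 fun y => ?_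
    have hM' := (inferInstance : M.Normal)
    constructor
    · exact fun hy => ⟨hM'.conj_mem y hy.1 a,
        Subgroup.mul_mem _ (Subgroup.mul_mem _ ha hy.2) (Subgroup.inv_mem _ ha)⟩
    · intro hy
      refine ⟨by simpa [mul_assoc] using hM'.conj_mem _ hy.1 a⁻¹, ?_⟩
      have h := (S : Subgroup H).mul_mem ((S : Subgroup H).mul_mem ((S : Subgroup H).inv_mem ha) hy.2) ha
      rwa [show a⁻¹ * (a * y * a⁻¹) * a = y by group] at h
  -- a Sylow subgroup of `M`
  have hTidx : ¬ 2 ∣ (MS.subgroupOf M).index := not_dvd_relIndex_inf S M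
  let T : Sylow 2 M := (hMS2.comap_of_injective M.subtype M.subtype_injective).toSylow hTidx
  have hTmap : (T : Subgroup M).map M.subtype = MS := by
    show (MS.subgroupOf M).map M.subtype = MS
    rw [Subgroup.map_subgroupOf_eq_of_le inf_le_left]
  have hfr : N ⊔ M = ⊤ := by
    have h := Sylow.normalizer_sup_eq_top (N := M) T
    rwa [hTmap] at h
  -- the series
  let X : ℕ → Subgroup H := fun i => (next ρ)^[i] (MS ⊓ fixCenters H)
  have hXs : ∀ i, X (i + 1) = next ρ (X i) := fun i => Function.iterate_succ_apply' _ _ _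
  have hX : ∀ i, X i ≤ MS ⊓ fixCenters H ∧ N ≤ Subgroup.normalizer (X i : Set H) := by
    intro i
    induction i with
    | zero =>
      refine ⟨le_rfl, fun a ha => Subgroup.mem_normalizer_iff.2 fun y => ?_⟩
      refine ⟨fun hy => ⟨(Subgroup.mem_normalizer_iff.1 ha y).1 hy.1, conj_mem_fixCenters hy.2⟩, fun hy =>
        ⟨(Subgroup.mem_normalizer_iff.1 ha y).2 hy.1, ?_⟩⟩
      have h := conj_mem_fixCenters (h := a⁻¹) hy.2
      simpa [mul_assoc] using h
    | succ i ih =>
      rw [hXs]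
      exact ⟨le_trans inf_le_left ih.1, le_normalizer_next ih.2⟩
  have hcard : ∀ i, X i = ⊥ ∨ Nat.card (X i) + i ≤ Nat.card (X 0) := by
    intro i
    induction i with
    | zero => exact Or.inr le_rfl
    | succ i ih =>
      rw [hXs]
      rcases eq_or_ne (X i) ⊥ with h | h
      · exact Or.inl (le_bot_iff.1 (h ▸ inf_le_left))
      refine Or.inr ?_
      have hlt : next ρ (X i) < X i := lt_of_le_of_ne inf_le_left
        (next_ne hinj inferInstance (hMS2.to_le ((hX i).1.trans inf_le_left)) ((hX i).1.trans inf_le_right)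
          (fun m hm hm' => eq_one_of_centralizes_layers hO hm hm') h)
      have h1 : Nat.card (next ρ (X i)) < Nat.card (X i) :=
        lt_of_not_ge fun hge => hlt.ne (Subgroup.eq_of_le_of_card_ge hlt.le hge)
      have := ih.resolve_left h
      omega
  have hbot : X (Nat.card (X 0)) = ⊥ := (hcard _).resolve_right fun h => by
    have := Nat.card_pos (α := X (Nat.card (X 0)))
    omega
  let W : ℕ → Subgroup H := fun j => match j with
    | 0 => MS
    | i + 1 => X i
  have hW : ∀ j, W j ≤ MS ∧ N ≤ Subgroup.normalizer (W j : Set H) := by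
    intro j
    cases j with
    | zero => exact ⟨le_rfl, le_rfl⟩
    | succ i => exact ⟨(hX i).1.trans inf_le_left, (hX i).2⟩
  -- the stabiliser of the series
  let L : Subgroup H :=
    { carrier := {g | g ∈ N ∧ ∀ j, ∀ m ∈ W j, g * m * g⁻¹ * m⁻¹ ∈ W (j + 1)}
      one_mem' := ⟨one_mem _, fun j m _ => by simp⟩
      mul_mem' := fun {a b} ha hb => ⟨mul_mem ha.1 hb.1, fun j m hm => by
        have e : a * b * m * (a * b)⁻¹ * m⁻¹ = a * (b * m * b⁻¹ * m⁻¹) * a⁻¹ * (a * m * a⁻¹ * m⁻¹) := by group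
        rw [e]
        exact mul_mem ((Subgroup.mem_normalizer_iff.1 ((hW (j + 1)).2 ha.1) _).1 (hb.2 j m hm)) (ha.2 j m hm)⟩
      inv_mem' := fun {a} ha => ⟨inv_mem ha.1, fun j m hm => by
        have e : a⁻¹ * m * a⁻¹⁻¹ * m⁻¹ = a⁻¹ * (a * m * a⁻¹ * m⁻¹)⁻¹ * a⁻¹⁻¹ := by group
        rw [e]
        exact (Subgroup.mem_normalizer_iff.1 ((hW (j + 1)).2 (inv_mem ha.1)) _).1 (inv_mem (ha.2 j m hm))⟩ }
  have hzN : z ∈ N := hSN hz.mem
  have hzL : z ∈ L := by
    refine ⟨hzN, fun j m hm => ?_⟩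
    cases j with
    | zero =>
      change z * m * z⁻¹ * m⁻¹ ∈ MS ⊓ fixCenters H
      refine Subgroup.mem_inf.2 ⟨mul_mem ((Subgroup.mem_normalizer_iff.1 hzN m).1 hm) (inv_mem hm), ?_⟩
      intro L' a ha
      haveI := Fact.mk L'.prime
      have hRk : (Nat.card L'.R : k) ≠ 0 := by
        obtain ⟨i, hi⟩ := IsPGroup.iff_card.1 L'.isPGroup
        rw [Ne, CharP.cast_eq_zero_iff k 2, hi]
        exact fun h => L'.ne_two ((Nat.prime_dvd_prime_iff_eq Nat.prime_two L'.prime).1
          (Nat.prime_two.dvd_of_dvd_pow h)).symm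
      have hzf : ∀ b ∈ Subgroup.center L'.R, L'.act z b = b := fun b hb =>
        hz.fix_center hinj L'.R hRk (L'.act.comp (S : Subgroup H).subtype) (fun y s => L'.act_coe y s) ⟨b, hb⟩
      have hzi : ∀ b ∈ Subgroup.center L'.R, L'.act z⁻¹ b = b := fun b hb => by
        conv_lhs => rw [← hzf b hb]
        rw [map_inv, MulAut.inv_apply_self]
      have hmc : L'.act m⁻¹ a ∈ Subgroup.center L'.R :=
        (Subgroup.characteristic_iff_map_eq.1 inferInstance (L'.act m⁻¹)).le ⟨a, ha, rfl⟩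
      have hmm : L'.act m (L'.act m⁻¹ a) = a := by rw [map_inv, MulAut.apply_inv_self]
      rw [map_mul, map_mul, map_mul, MulAut.mul_apply, MulAut.mul_apply, MulAut.mul_apply, hzi _ hmc, hmm, hzf a ha]
    | succ i =>
      change z * m * z⁻¹ * m⁻¹ ∈ X (i + 1)
      rw [hXs]
      have hSX : (S : Subgroup H) ≤ Subgroup.normalizer (X i : Set H) := hSN.trans (hX i).2
      refine Subgroup.mem_inf.2 ⟨mul_mem ((Subgroup.mem_normalizer_iff.1 (hSX hz.mem) m).1 hm) (inv_mem hm),
        Subgroup.mem_iInf.2 fun pc => ?_⟩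
      exact comm_mem hinj S.isPGroup' hz pc ((hX i).1.trans (inf_le_left.trans inf_le_right))
        ((hX i).1.trans inf_le_right) hSX hm
  -- odd order elements of `L` lie in `M`
  have hodd : ∀ g ∈ L, ¬ 2 ∣ orderOf g → g ∈ M := by
    intro g hg hgo
    have h1 := commute_of_stabilizes (W := W) (N := Nat.card (X 0) + 1) (fun j => hMS2.to_le (hW j).1)
      (show W (Nat.card (X 0) + 1) = ⊥ from hbot) hgo hg.2
    let f := QuotientGroup.mk' Q
    have hC := CfsgLib.Constrained.centralizer_pCore_le (p := 2) (G := H ⧸ Q)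
      (CfsgLib.Constrained.IsPSolvable.quotient CfsgLib.Constrained.isPSolvable_of_isSolvable _)
      CfsgLib.Constrained.pPrimeCore_quotient_pPrimeCore
    show f g ∈ pCore 2 (H ⧸ Q)
    refine hC (Subgroup.mem_centralizer_iff.2 fun y hy => ?_)
    have hy' : y ∈ ((T : Subgroup M).map M.subtype).map f := by
      rw [CfsgLib.Constrained.map_sylow_pPrimePCore T]; exact hy
    rw [hTmap] at hy'
    obtain ⟨m, hm, rfl⟩ := hy'
    rw [← map_mul, ← map_mul, h1 m hm]
  -- `L` is normal in `N`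
  have hLN : ∀ a ∈ N, ∀ g ∈ L, a * g * a⁻¹ ∈ L := fun a ha g hg => ⟨mul_mem (mul_mem ha hg.1) (inv_mem ha),
    fun j m hm => by
      have h := hg.2 j (a⁻¹ * m * a⁻¹⁻¹)
        ((Subgroup.mem_normalizer_iff.1 ((hW j).2 (inv_mem ha)) m).1 hm)
      have h2 := (Subgroup.mem_normalizer_iff.1 ((hW (j + 1)).2 ha) _).1 h
      convert h2 using 1
      group⟩
  let fM := QuotientGroup.mk' M
  let fQ := QuotientGroup.mk' Q
  have hLMn : (L ⊔ M).Normal := by
    refine ⟨fun y hy g => ?_⟩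
    obtain ⟨a, ha, b, hb, rfl⟩ := Subgroup.mem_sup_of_normal_right.1 (hfr ▸ Subgroup.mem_top g : g ∈ N ⊔ M)
    have hb' : b * y * b⁻¹ ∈ L ⊔ M :=
      mul_mem (mul_mem (Subgroup.mem_sup_right hb) hy) (inv_mem (Subgroup.mem_sup_right hb))
    have hle : L ⊔ M ≤ (L ⊔ M).comap (MulAut.conj a).toMonoidHom := sup_le
      (fun l hl => Subgroup.mem_sup_left (hLN a ha l hl))
      (fun l hl => Subgroup.mem_sup_right ((inferInstance : M.Normal).conj_mem l hl a))
    have h : a * (b * y * b⁻¹) * a⁻¹ ∈ L ⊔ M := hle hb'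
    convert h using 1
    group
  have hLM2 : IsPGroup 2 ((L ⊔ M).map fQ) := by
    rintro ⟨_, y, hy, rfl⟩
    obtain ⟨l, hl, b, hb, rfl⟩ := Subgroup.mem_sup_of_normal_right.1 hy
    obtain ⟨e, d, hd, hed⟩ := Nat.exists_eq_pow_mul_and_not_dvd (orderOf_pos l).ne' 2 (by norm_num)
    have hlM : l ^ 2 ^ e ∈ M := hodd _ (pow_mem hl _) (by
      rw [orderOf_pow' l (pow_ne_zero _ two_ne_zero), hed, Nat.gcd_mul_right_left,
        Nat.mul_div_cancel_left _ (pow_pos two_pos e)]
      exact hd)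
    have h1 : (l * b) ^ 2 ^ e ∈ M := by
      rw [← QuotientGroup.eq_one_iff, QuotientGroup.mk_pow, QuotientGroup.mk_mul, (QuotientGroup.eq_one_iff b).2 hb,
        mul_one, ← QuotientGroup.mk_pow, (QuotientGroup.eq_one_iff _).2 hlM]
    obtain ⟨r, hr⟩ := CfsgLib.Constrained.isPGroup_pCore (p := 2) (G := H ⧸ Q) ⟨fQ ((l * b) ^ 2 ^ e), h1⟩
    refine ⟨e + r, Subtype.ext ?_⟩
    rw [Subgroup.coe_pow, pow_add, pow_mul, ← map_pow]
    exact congrArg Subtype.val hr
  exact CfsgLib.Constrained.le_pPrimePCore hLMn hLM2 (Subgroup.mem_sup_left hzL)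

/-- Two factors of the lower 2-series absorb one step of the exponent. -/
theorem pow_mem_pPrimePCore_two {K : Type u} [Group K] [Finite K] [Group.IsSolvable K]
    (hO : pPrimeCore 2 K = ⊥) {n : ℕ} (hexp : ExpLE 2 (n + 1) K) {x : K} (hx : ∃ i, x ^ 2 ^ i = 1) :
    (x : K ⧸ pCore 2 K) ^ 2 ^ n ∈ pPrimePCore 2 (K ⧸ pCore 2 K) := by
  haveI := Fact.mk Nat.prime_two
  let mk : K →* K ⧸ pCore 2 K := QuotientGroup.mk' _
  have hmk : Function.Surjective mk := QuotientGroup.mk'_surjective _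
  have hexp0 : ExpLE 2 (n + 1) (K ⧸ pCore 2 K) := hexp.of_surjective mk hmk
  set x0 : K ⧸ pCore 2 K := (x : K ⧸ pCore 2 K) with hx0def
  have hx0 : ∃ i, x0 ^ 2 ^ i = 1 := by
    obtain ⟨i, hi⟩ := hx
    exact ⟨i, by rw [hx0def, ← QuotientGroup.mk_pow, hi, QuotientGroup.mk_one]⟩
  obtain ⟨S, hS⟩ : ∃ S : Sylow 2 (K ⧸ pCore 2 K), x0 ∈ (S : Subgroup _) := by
    obtain ⟨i, hi⟩ := hx0
    obtain ⟨j, -, hj⟩ := (Nat.dvd_prime_pow Nat.prime_two).1 (orderOf_dvd_of_pow_eq_one hi)
    obtain ⟨S, hS⟩ := (IsPGroup.of_card (p := 2) (n := j)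
      (show Nat.card (Subgroup.zpowers x0) = 2 ^ j by rw [Nat.card_zpowers, hj])).exists_le_sylow
    exact ⟨S, hS (Subgroup.mem_zpowers x0)⟩
  refine pow_mem_of_pinched CfsgLib.Constrained.pCore_quotient_pCore (rep 2 K)
    (rep_injective 2 K CfsgLib.Constrained.isPSolvable_of_isSolvable hO) S
    ⟨x0, hS, n, rfl, by rw [← pow_mul, ← pow_succ, hexp0 _ hx0], ?_⟩
  by_contra hsum
  obtain ⟨w, hw, hne'⟩ := exists_mul_pow_ne 2 K (x := x) hsum
  exact hne' (by rw [hexp _ hx, hexp _ (exists_pow_eq_one_mul CfsgLib.Constrained.isPGroup_pCore hw hx)])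

/-- Gross's bound. -/
theorem pLengthLE_two_mul_sub_one : ∀ (n : ℕ) (K : Type u) [Group K] [Finite K], Group.IsSolvable K →
    ExpLE 2 (n + 1) K → PLengthLE 2 (2 * n + 1) K := by
  haveI := Fact.mk Nat.prime_two
  intro n
  induction n with
  | zero =>
    intro K _ _ hK hexp
    refine pLengthLE_of_drops (p := 2) (fun (L : Type u) [Group L] => Group.IsSolvable L ∧ ExpLE 2 1 L) ?_ ?_ 1 K
      ⟨hK, hexp⟩ hexp
    · intro L _ _ N _ h
      haveI := h.1
      exact ⟨inferInstance, h.2.of_surjective _ (QuotientGroup.mk'_surjective N)⟩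
    · intro L _ _ h hO x m hx hxm _
      exfalso
      haveI := h.1
      rcases m with _ | m
      · rw [pow_zero, pow_one] at hxm
        refine hxm (CfsgLib.Constrained.centralizer_pCore_le CfsgLib.Constrained.isPSolvable_of_isSolvable hO
          (Subgroup.mem_centralizer_iff.2 fun v hv => ?_))
        obtain ⟨l, hl⟩ := CfsgLib.Constrained.isPGroup_pCore (p := 2) (G := L) ⟨v, hv⟩
        have hsq : ∀ g : L, (∃ i, g ^ 2 ^ i = 1) → g * g = 1 := fun g hg => by
          have := h.2 g hg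
          rwa [pow_one, sq] at this
        have hv2 := hsq v ⟨l, congrArg Subtype.val hl⟩
        have hx2 := hsq x hx
        have hvx2 := hsq (v * x) (exists_pow_eq_one_mul CfsgLib.Constrained.isPGroup_pCore hv hx)
        calc v * x = (v * x)⁻¹ := (inv_eq_of_mul_eq_one_right hvx2).symm
          _ = x⁻¹ * v⁻¹ := mul_inv_rev v x
          _ = x * v := by rw [inv_eq_of_mul_eq_one_right hv2, inv_eq_of_mul_eq_one_right hx2]
      · refine hxm ?_
        rw [pow_succ', pow_mul, show x ^ 2 = 1 by have := h.2 x hx; rwa [pow_one] at this, one_pow]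
        exact one_mem _
  | succ n ih =>
    intro K _ _ hK hexp
    rw [show 2 * (n + 1) + 1 = 2 * n + 1 + 1 + 1 by omega]
    refine CfsgLib.Constrained.pLengthLE_succ_of_quotient (CfsgLib.Constrained.pLengthLE_succ_of_quotient
      (ih _ inferInstance ?_))
    intro y hy
    obtain ⟨g, hg, rfl⟩ := exists_preimage_pow
      ((QuotientGroup.mk' (pPrimePCore 2 (K ⧸ pPrimePCore 2 K))).comp (QuotientGroup.mk' (pPrimePCore 2 K)))
      ((QuotientGroup.mk'_surjective _).comp (QuotientGroup.mk'_surjective _)) hy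
    let q₁ : K ⧸ pPrimeCore 2 K →* K ⧸ pPrimePCore 2 K :=
      QuotientGroup.lift _ (QuotientGroup.mk' _)
        (by rw [QuotientGroup.ker_mk']; exact CfsgLib.Constrained.pPrimeCore_le_pPrimePCore)
    have hq₁ : ∀ b, q₁ b = 1 ↔ b ∈ pCore 2 (K ⧸ pPrimeCore 2 K) := fun b => by
      induction b using QuotientGroup.induction_on with
      | _ a => exact QuotientGroup.eq_one_iff a
    let q₂ : (K ⧸ pPrimeCore 2 K) ⧸ pCore 2 (K ⧸ pPrimeCore 2 K) →* K ⧸ pPrimePCore 2 K :=
      QuotientGroup.lift _ q₁ fun b hb => (hq₁ b).2 hb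
    have hinj : Function.Injective q₂ := by
      rw [injective_iff_map_eq_one]
      intro b hb
      induction b using QuotientGroup.induction_on with
      | _ a => exact (QuotientGroup.eq_one_iff a).2 ((hq₁ a).1 hb)
    let e₂ : (K ⧸ pPrimeCore 2 K) ⧸ pCore 2 (K ⧸ pPrimeCore 2 K) ≃* K ⧸ pPrimePCore 2 K :=
      MulEquiv.ofBijective q₂ ⟨hinj, fun b => by
        induction b using QuotientGroup.induction_on with
        | _ a => exact ⟨((a : K ⧸ pPrimeCore 2 K) : _ ⧸ pCore 2 (K ⧸ pPrimeCore 2 K)), rfl⟩⟩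
    have h := Subgroup.mem_map_of_mem e₂.toMonoidHom (pow_mem_pPrimePCore_two
      CfsgLib.Constrained.pPrimeCore_quotient_pPrimeCore (hexp.of_surjective _ (QuotientGroup.mk'_surjective _))
      (x := (g : K ⧸ pPrimeCore 2 K)) (by
        obtain ⟨i, hi⟩ := hg
        exact ⟨i, by rw [← QuotientGroup.mk_pow, hi, QuotientGroup.mk_one]⟩))
    rw [CfsgLib.Constrained.map_pPrimePCore_map, map_pow] at h
    rw [← map_pow, MonoidHom.comp_apply, map_pow, QuotientGroup.mk'_apply, QuotientGroup.eq_one_iff]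
    exact h

end CfsgLib.PLengthGross
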